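import Mathlib
import Cfsg.Agent.Lib.KB.Defs

/-!
# Definitions for two-generated defect groups of order `64`
-/

set_option autoImplicit false
set_option linter.unusedSectionVars false

namespace CfsgLib.KB

open Subgroup CfsgLib.Blk CfsgLib.Tame
open CfsgLib.Cyc (qz)
open CfsgLib.BrPair (cS Cz Nz mem_Nz mem_Cz)

variable {G : Type*} [Group G] [Finite G]

/-- Two-generated groups of order `32` with commutator subgroup `C₂ × C₂`. -/
structure W32 (P : Subgroup G) : Prop where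
  card : Nat.card P = 32
  gen : ∃ x y, Subgroup.closure {x, y} = P
  cD : Nat.card (⁅P, P⁆ : Subgroup G) = 4
  sq : ∀ d ∈ ⁅P, P⁆, d * d = 1

/-- `Q` is centric and radical in `P` with respect to the automizer `T`. -/
structure Rad (P Q T : Subgroup G) : Prop where
  le : Q ≤ P
  cent : P ⊓ Cz Q ≤ Q
  nz : T ≤ Nz Q
  cz : Cz Q ≤ T
  pt : P ⊓ Nz Q ≤ T
  syl : ∃ k, Odd k ∧ (Cz Q).relIndex T = (Cz Q).relIndex (P ⊓ Nz Q) * k
  rad : ∀ N : Subgroup G, N ≤ T → T ≤ Nz N → (∀ g ∈ N, ∃ n : ℕ, g ^ 2 ^ n ∈ Cz Q) → N ≤ Q ⊔ Cz Q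

end CfsgLib.KB
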