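import Mathlib
import Cfsg.Agent.Lib.KB.Nab
import Cfsg.Agent.Lib.KB.G16

/-!
# Nonabelian `2`-groups of order at most `32`
-/

set_option autoImplicit false
set_option linter.unusedSectionVars false

namespace CfsgLib.KB

open Subgroup CfsgLib.Blk CfsgLib.Tame
open CfsgLib.Cyc (qz)
open CfsgLib.BrPair (cS Cz Nz mem_Nz mem_Cz)
open scoped commutatorElement

variable {G : Type*} [Group G] [Finite G]

namespace G45

open G16

theorem step {P A : Subgroup G} (hA : A ≤ P) (hab : A ≤ Cz A) {w : G} (hw : w ∈ P)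
    (hc : w ∈ Cz A) (h : w ∉ A) :
    A ⊔ zpowers w ≤ P ∧ A ⊔ zpowers w ≤ Cz (A ⊔ zpowers w) ∧
      2 * Nat.card A ≤ Nat.card (A ⊔ zpowers w : Subgroup G) := by
  refine ⟨sup_le hA (zpowers_le.2 hw), ?_,
    Sect.two_mul_card_le le_sup_left fun e => h (e (mem_sup_right (mem_zpowers w)))⟩
  rw [Cz, LAE.centralizer_sup]
  exact le_inf (sup_le hab (zpowers_le.2 hc)) (sup_le (le_centralizer_iff.1 (zpowers_le.2 hc))
    (zpowers_le.2 (Sect.cent_zpowers rfl)))

variable {P : Subgroup G} (na : ∀ A ≤ P, A ≤ Cz A → Nat.card A < 16)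
include na

theorem mem_of_eight {A : Subgroup G} (hA : A ≤ P) (hab : A ≤ Cz A) (h8 : 8 ≤ Nat.card A) {w : G}
    (hw : w ∈ P) (hc : w ∈ Cz A) : w ∈ A := by
  by_contra h
  obtain ⟨h1, h2, h3⟩ := step hA hab hw hc h
  have := na _ h1 h2
  omega

theorem mem_of_four {A C : Subgroup G} (hA : A ≤ P) (hab : A ≤ Cz A) (h4 : 4 ≤ Nat.card A)
    (hC : C ≤ P) (h16 : 16 ≤ Nat.card C) (hCA : C ≤ Cz A) {w : G} (hw : w ∈ P) (hc : w ∈ Cz A)
    (hCw : w ∈ Cz C) : w ∈ A := by
  by_contra h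
  obtain ⟨h1, h2, h3⟩ := step hA hab hw hc h
  have h5 := na _ h1 h2
  obtain ⟨x, hx, hx'⟩ := Sect.exists_notMem (K := A ⊔ zpowers w) (H := C) (by omega)
  refine hx' (mem_of_eight na h1 h2 (by omega) (hC hx) ?_)
  rw [Cz, LAE.centralizer_sup]
  exact ⟨hCA hx, Sect.cent_zpowers (mem_Cz.1 hCw x hx)⟩

theorem class_two (h4 : Nat.card (⁅P, P⁆ : Subgroup G) = 4) (hD : ⁅P, P⁆ ≤ Cz P) :
    ∀ d ∈ ⁅P, P⁆, d * d = 1 := by
  have ZZ : P ⊓ Cz P ≤ Cz (P ⊓ Cz P) := fun z hz => centralizer_le inf_le_left hz.2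
  have Z4 : 4 ≤ Nat.card (P ⊓ Cz P : Subgroup G) :=
    h4.ge.trans (card_le_of_le (le_inf (commutator_le' P) hD))
  let E : Subgroup G :=
    { carrier := {x | x ∈ P ⊓ Cz P ∧ x * x = 1}
      one_mem' := ⟨one_mem _, mul_one _⟩
      mul_mem' := fun {a b} ha hb => ⟨mul_mem ha.1 hb.1, by
        rw [mul_assoc, ← mul_assoc b, mem_Cz.1 ha.1.2 b hb.1.1, mul_assoc, hb.2, mul_one, ha.2]⟩
      inv_mem' := fun {a} ha => ⟨inv_mem ha.1, by rw [← mul_inv_rev, ha.2, inv_one]⟩ }
  refine fun d hd => ((commutator_le.2 fun g hg h hh => ?_ : _ ≤ E) hd).2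
  have he := commutator_mem_commutator hg hh
  refine ⟨⟨commutator_le' P he, hD he⟩, ?_⟩
  by_contra hc
  set e := ⁅g, h⁆
  have c1 : Commute g e := mem_Cz.1 (hD he) g hg
  have c2 : Commute h e := mem_Cz.1 (hD he) h hh
  have e1 : g * h * g⁻¹ = e * h := by simp [e, commutatorElement_def]
  have e4 : e ^ 4 = 1 := congrArg Subtype.val (h4 ▸ pow_card_eq_one' (x := (⟨e, he⟩ : ↥⁅P, P⁆)))
  have e2 : g * g * h * (g * g)⁻¹ = e * e * h := by
    rw [show g * g * h * (g * g)⁻¹ = g * (g * h * g⁻¹) * g⁻¹ by group, e1, ← mul_assoc, c1.eq,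
      mul_assoc e, mul_assoc e, e1, mul_assoc]
  have sq : ∀ f : G, Commute h f → f * h * (f * h) = f * f * (h * h) := fun f hf => by
    rw [mul_assoc, ← mul_assoc h, hf.eq]; simp only [mul_assoc]
  obtain ⟨h1, h2, h3⟩ := step inf_le_left ZZ (mul_mem hg hg)
    (mem_Cz.2 fun z hz => (mem_Cz.1 hz.2 _ (mul_mem hg hg)).symm) fun k => hc (by
      rw [mul_inv_eq_iff_eq_mul.2 (mem_Cz.1 k.2 h hh).symm] at e2
      exact mul_eq_right.1 e2.symm)
  have h5 := mem_of_eight na h1 h2 (by omega) hg (by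
    rw [Cz, LAE.centralizer_sup]
    exact ⟨mem_Cz.2 fun z hz => (mem_Cz.1 hz.2 _ hg).symm, Sect.cent_zpowers (mul_assoc _ _ _).symm⟩)
  have h6 : P ⊓ Cz P ⊔ zpowers (g * g) ≤ Cu (h * h) := sup_le
    (fun z hz => mem_Cu.2 (mem_Cz.1 hz.2 _ (mul_mem hh hh))) (zpowers_le.2 (mem_Cu.2 (by
      rw [eq_comm, ← mul_inv_eq_iff_eq_mul, ← conj_mul, e2, sq _ (c2.mul_right c2),
        show e * e * (e * e) = e ^ 4 by simp only [pow_succ, pow_zero, one_mul, mul_assoc], e4,
        one_mul])))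
  have h7 := mul_inv_eq_iff_eq_mul.2 (mem_Cu.1 (h6 h5)).symm
  rw [← conj_mul, e1, sq _ c2] at h7
  exact hc (mul_eq_right.1 h7)

theorem class_three (hP : IsPGroup 2 P) (h32 : Nat.card P = 32)
    (h4 : Nat.card (⁅P, P⁆ : Subgroup G) = 4) (hD : ¬ ⁅P, P⁆ ≤ Cz P)
    (he : ∀ u ∈ P, u * u * (u * u) = 1) {j : G} (hj : j ∈ P) (jj : j * j ≠ 1)
    (hn : ∀ g ∈ P, g * j * g⁻¹ = j ∨ g * j * g⁻¹ = j * j * j) : False := by
  set D := ⁅P, P⁆ with hDdef
  have DP : D ≤ P := commutator_le' P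
  have nD : ∀ g ∈ P, ∀ d ∈ D, g * d * g⁻¹ ∈ D := fun g hg d hd =>
    (mem_Nz.1 (LAE.le_normalizer_commutator le_normalizer le_normalizer hg) d).1 hd
  obtain ⟨c, cD, c1, cZ'⟩ := Sect.exists_cent_of_norm hP DP nD fun e => by
    rw [e, card_bot] at h4; omega
  have cZ : c ∈ Cz P := mem_Cz.2 cZ'
  have l1 := Sect.two_mul_card_le (K := D ⊓ Cz P) inf_le_left fun h => hD (h.trans inf_le_right)
  have two : ∀ x ∈ D, x ∈ Cz P → x = 1 ∨ x = c := fun x hx hx' =>
    Sect.two_cases (K := D ⊓ Cz P) (by omega) ⟨cD, cZ⟩ c1 ⟨hx, hx'⟩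
  have cc : c * c = 1 := (two _ (mul_mem cD cD) (mul_mem cZ cZ)).resolve_right (by simpa using c1)
  obtain ⟨d₀, d₀D, d₀Z⟩ := SetLike.not_le_iff_exists.1 hD
  have conj : ∀ d ∈ D, d ∉ Cz P → ∀ g ∈ P, g * d * g⁻¹ = d ∨ g * d * g⁻¹ = c * d :=
    fun d hd hZ g hg => by
      rcases Sect.four_cases h4.le cD hd cc c1 (fun e => hZ (e ▸ one_mem _))
        (fun e => hZ (e ▸ cZ)) (nD g hg d hd) with e | e | e | e
      · exact (hZ (by rw [show d = 1 by simpa using e]; exact one_mem _)).elim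
      · refine (hZ ?_).elim
        rw [mul_inv_eq_iff_eq_mul, ← cZ' g hg] at e
        exact mul_left_cancel e ▸ cZ
      · exact Or.inl e
      · exact Or.inr e
  have four : ∀ d ∈ D, d ∉ Cz P → ∀ x ∈ D, x = 1 ∨ x = c ∨ x = d ∨ x = c * d := fun d hd hZ x hx =>
    Sect.four_cases h4.le cD hd cc c1 (fun e => hZ (e ▸ one_mem _)) (fun e => hZ (e ▸ cZ)) hx
  have cen : ∀ d ∈ D, d ∉ Cz P → ∀ g ∈ P, g * d * g⁻¹ = d → g ∈ Cz D := fun d hd hZ g hg e =>
    mem_Cz.2 fun x hx => by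
      have e' : Commute d g := (mul_inv_eq_iff_eq_mul.1 e).symm
      have e'' : Commute c g := (cZ' g hg).symm
      rcases four d hd hZ x hx with rfl | rfl | rfl | rfl
      exacts [Commute.one_left g, e'', e', e''.mul_left e']
  set M := P ⊓ Cz D
  have iM : M.relIndex P ≤ 2 := Sect.relIndex_le_two fun x hx y hy h1 h2 => by
    have k : ∀ x ∈ P, x ∉ M → x * d₀ * x⁻¹ = c * d₀ := fun x hx h1 =>
      (conj d₀ d₀D d₀Z x hx).resolve_left fun e => h1 ⟨hx, cen d₀ d₀D d₀Z x hx e⟩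
    refine mem_inf.2 ⟨mul_mem (inv_mem hx) hy, cen d₀ d₀D d₀Z _ (mul_mem (inv_mem hx) hy) ?_⟩
    rw [show x⁻¹ * y * d₀ * (x⁻¹ * y)⁻¹ = x⁻¹ * (y * d₀ * y⁻¹) * x by group, k y hy h2,
      ← k x hx h1]
    group
  have M16 : 16 ≤ Nat.card M := by
    have := Sect.card_eq_relIndex' (K := M) (H := P) inf_le_left
    nlinarith
  have DD : D ≤ Cz D := fun d hd => by
    rcases four d₀ d₀D d₀Z d hd with rfl | rfl | rfl | rfl
    · exact one_mem _
    · exact centralizer_le DP cZ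
    · exact cen d d₀D d₀Z d (DP d₀D) (mul_inv_cancel_right _ _)
    · exact mul_mem (centralizer_le DP cZ) (cen d₀ d₀D d₀Z d₀ (DP d₀D) (mul_inv_cancel_right _ _))
  have DM : D ≤ M := le_inf DP DD
  have ZM : ∀ w ∈ M, w ∈ Cz M → w ∈ D := fun w hw hw' =>
    mem_of_four na DP DD h4.ge inf_le_left M16 inf_le_right hw.1 hw.2 hw'
  have Z2 : ∀ z ∈ P, z ∈ Cz P → z = 1 ∨ z = c := fun z hz hz' =>
    two z (ZM z ⟨hz, centralizer_le DP hz'⟩ (centralizer_le inf_le_left hz')) hz'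
  have MM : ∀ x ∈ M, ∀ y ∈ M, x * y * x⁻¹ * y⁻¹ = 1 ∨ x * y * x⁻¹ * y⁻¹ = c := fun x hx y hy => by
    have k : ⁅⁅M, M⁆, P⁆ = ⊥ := commutator_commutator_eq_bot_of_rotate
      (commutator_eq_bot_iff_le_centralizer.2 ((commutator_mono inf_le_left le_rfl).trans
        (le_centralizer_iff.1 inf_le_right)))
      (commutator_eq_bot_iff_le_centralizer.2 ((commutator_mono le_rfl inf_le_left).trans
        (le_centralizer_iff.1 inf_le_right)))
    exact two _ (commutator_mem_commutator hx.1 hy.1)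
      (commutator_eq_bot_iff_le_centralizer.1 k (commutator_mem_commutator hx hy))
  -- the second centre
  let Y : Subgroup G :=
    { carrier := {x | x ∈ P ∧ ∀ g ∈ P, g * x * g⁻¹ * x⁻¹ ∈ zpowers c}
      one_mem' := ⟨one_mem _, fun g _ => by simp⟩
      mul_mem' := fun {a b} ha hb => ⟨mul_mem ha.1 hb.1, fun g hg => by
        have k := mem_Cz.1 (zpowers_le.2 cZ (hb.2 g hg)) a ha.1
        have := mul_mem (ha.2 g hg) (hb.2 g hg)
        convert this using 1
        rw [← mul_inv_eq_iff_eq_mul.2 k]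
        group⟩
      inv_mem' := fun {a} ha => ⟨inv_mem ha.1, fun g hg => by
        have k := mem_Cz.1 (zpowers_le.2 cZ (ha.2 g hg)) a⁻¹ (inv_mem ha.1)
        have := inv_mem (ha.2 g hg)
        convert this using 1
        rw [← mul_inv_eq_iff_eq_mul.2 k]
        group⟩ }
  have mc : ∀ {x : G}, x = 1 ∨ x = c → x ∈ zpowers c := (Sect.mem_zpowers_two cc).2
  obtain ⟨a, ha, aM⟩ : ∃ a ∈ P, a ∉ M := by
    by_contra h
    push Not at h
    exact d₀Z (mem_Cz.2 fun g hg => (mem_Cz.1 (h g hg).2 d₀ d₀D).symm)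
  have mY : ∀ x ∈ M, a * x * a⁻¹ * x⁻¹ ∈ zpowers c → x ∈ Y := fun x hx h => ⟨hx.1, fun g hg => by
    by_cases k : g ∈ M
    · exact mc (MM g k x hx)
    · have k1 := Sect.mul_mem_of_le_two iM hg (inv_mem ha) k (by simpa using aM)
      obtain ⟨m, rfl⟩ : ∃ m, g = m * a := ⟨g * a⁻¹, by simp⟩
      rw [mul_inv_cancel_right] at k1
      have k2 := mem_Cz.1 (zpowers_le.2 cZ h) m k1.1
      convert mul_mem h (mc (MM m k1 x hx)) using 1
      rw [← mul_inv_eq_iff_eq_mul.2 k2]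
      group⟩
  obtain ⟨b, hb, bY⟩ : ∃ b ∈ M, a * b * a⁻¹ * b⁻¹ ∉ zpowers c := by
    by_contra h
    push Not at h
    refine hD ((commutator_le.2 fun g hg x hx => ?_).trans (zpowers_le.2 cZ))
    by_cases k : x ∈ M
    · exact (mY x k (h x k)).2 g hg
    by_cases k' : g ∈ M
    · simpa [commutatorElement_def, mul_assoc] using inv_mem ((mY g k' (h g k')).2 x hx)
    have k1 := Sect.mul_mem_of_le_two iM (inv_mem hg) hx (by simpa using k') k
    have k2 := (mY _ k1 (h _ k1)).2 g hg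
    have k3 := mem_Cz.1 (zpowers_le.2 cZ k2) g hg
    convert k2 using 1
    rw [← mul_inv_eq_iff_eq_mul.2 k3, commutatorElement_def]
    group
  obtain ⟨d, hd⟩ : ∃ d, d = a * b * a⁻¹ * b⁻¹ := ⟨_, rfl⟩
  have dD : d ∈ D := hd ▸ commutator_mem_commutator ha hb.1
  have dZ : d ∉ Cz P := fun e => bY (hd ▸ mc (two d dD e))
  have e1 : a * b * a⁻¹ = d * b := by rw [hd]; simp
  have e2 : a * d * a⁻¹ = c * d := (conj d dD dZ a ha).resolve_left fun e =>
    aM ⟨ha, cen d dD dZ a ha e⟩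
  have db : Commute d b := mem_Cz.1 hb.2 d dD
  have dd : d * d = 1 ∨ d * d = c := two _ (mul_mem dD dD) (mem_Cz.2 fun g hg => by
    rw [← mul_inv_eq_iff_eq_mul, ← conj_mul]
    rcases conj d dD dZ g hg with e | e <;> rw [e]
    rw [mul_assoc, ← mul_assoc d, cZ' d (DP dD), mul_assoc, ← mul_assoc, cc, one_mul])
  have jc : j * j = c := (Z2 _ (mul_mem hj hj) (mem_Cz.2 fun g hg => by
    rw [← mul_inv_eq_iff_eq_mul, ← conj_mul]
    rcases hn g hg with e | e <;> rw [e]
    rw [show j * j * j * (j * j * j) = j * j * (j * j) * (j * j) by group, he j hj,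
      one_mul])).resolve_left jj
  rcases dd with dd | dd
  · have jY : j ∈ Y := ⟨hj, fun g hg => mc (by
      rcases hn g hg with e | e <;> rw [e]
      · exact Or.inl (mul_inv_cancel _)
      · exact Or.inr (by rw [mul_inv_cancel_right, jc]))⟩
    have D2 : ∀ x ∈ D, x * x = 1 := fun x hx => by
      rcases four d dD dZ x hx with rfl | rfl | rfl | rfl
      exacts [mul_one _, cc, dd,
        by rw [mul_assoc, ← mul_assoc d, cZ' d (DP dD), mul_assoc, ← mul_assoc, cc, dd, one_mul]]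
    have YM : Y ≤ M := fun y hy => ⟨hy.1, (commutator_le.2 fun g hg h hh => ?_ : _ ≤ Cu y) |>
      fun k => mem_Cz.2 fun u hu => (mem_Cu.1 (k hu)).symm⟩
    · have aa : a * a ∈ M := Sect.mul_mem_of_le_two iM ha ha aM aM
      have aY : a * a ∈ Y := mY _ aa (mc (Or.inl (by group)))
      have aD : a * a ∉ D := fun e => c1 (by
        have k := mem_Cz.1 hb.2 _ e
        have : a * (a * b * a⁻¹) * a⁻¹ = b := by
          rw [show a * (a * b * a⁻¹) * a⁻¹ = a * a * b * (a * a)⁻¹ by group, k,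
            mul_inv_cancel_right]
        rw [e1, ← conj_mul, e1, e2, mul_assoc, ← mul_assoc d, dd, one_mul] at this
        exact mul_eq_right.1 this)
      have DY : D ≤ Y := fun x hx => mY x (DM hx) (mc (by
        by_cases k : x ∈ Cz P
        · exact Or.inl (by rw [mem_Cz.1 k a ha]; group)
        · rcases conj x hx k a ha with e | e <;> rw [e]
          · exact Or.inl (mul_inv_cancel _)
          · exact Or.inr (mul_inv_cancel_right _ _)))
      have l2 := Sect.two_mul_card_le YM fun h => bY ((h hb).2 a ha)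
      have l3 := Sect.two_mul_card_le (K := M) (H := P) inf_le_left fun h => aM (h ha)
      have l4 := Sect.card_eq_relIndex' DY
      rw [h4] at l4
      have k := Sect.mul_mem_of_le_two (L := D) (H := Y) (by omega) aY (inv_mem jY) aD
        (fun e => jj (D2 j (inv_mem_iff.1 e)))
      obtain ⟨x, hx⟩ : ∃ x, a * a = x * j := ⟨a * a * j⁻¹, by simp⟩
      rw [hx, mul_inv_cancel_right] at k
      have k2 := he a ha
      rw [hx, mul_assoc, ← mul_assoc j, ← mem_Cz.1 (YM jY).2 x k, mul_assoc, ← mul_assoc, D2 x k,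
        one_mul] at k2
      exact jj k2
    · have k1 := mem_Cz.1 (zpowers_le.2 cZ (hy.2 g hg))
      have k2 := mem_Cz.1 (zpowers_le.2 cZ (hy.2 h hh))
      obtain ⟨s, hs⟩ : ∃ s, s = g * y * g⁻¹ * y⁻¹ := ⟨_, rfl⟩
      obtain ⟨t, ht⟩ : ∃ t, t = h * y * h⁻¹ * y⁻¹ := ⟨_, rfl⟩
      rw [← hs] at k1
      rw [← ht] at k2
      have f1 : g * y = y * g * s := by rw [k1 _ (mul_mem hy.1 hg), hs, mul_assoc _ y⁻¹]; group
      have f2 : h * y = y * h * t := by rw [k2 _ (mul_mem hy.1 hh), ht, mul_assoc _ y⁻¹]; group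
      have f3 : g * h * y = y * (g * h) * (s * t) := by
        rw [mul_assoc, f2, ← mul_assoc, ← mul_assoc, f1, mul_assoc _ s, ← k1 h hh]; group
      have f4 : h * g * y = y * (h * g) * (s * t) := by
        rw [mul_assoc, f1, ← mul_assoc, ← mul_assoc, f2, mul_assoc _ t, ← k2 g hg,
          ← k1 _ (show t ∈ P from ht ▸ DP (commutator_mem_commutator hh hy.1))]
        group
      refine mem_Cu.2 ?_
      have f5 : (h * g)⁻¹ * y = y * (h * g)⁻¹ * (s * t)⁻¹ := by
        have k3 : Commute (h * g) (s * t) :=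
          Commute.mul_right (k1 _ (mul_mem hh hg)) (k2 _ (mul_mem hh hg))
        have k4 : Commute y (s * t) := Commute.mul_right (k1 _ hy.1) (k2 _ hy.1)
        rw [inv_mul_eq_iff_eq_mul, ← mul_assoc, ← mul_assoc, f4, mul_assoc _ (s * t),
          ← k3.inv_left.eq]
        group
      have k5 : Commute (s * t) (h * g)⁻¹ :=
        (Commute.mul_right (k1 _ (mul_mem hh hg)) (k2 _ (mul_mem hh hg))).symm.inv_right
      rw [show ⁅g, h⁆ = g * h * (h * g)⁻¹ by rw [commutatorElement_def]; group, mul_assoc _ _ y, f5,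
        ← mul_assoc (g * h), ← mul_assoc (g * h), f3, mul_assoc _ (s * t), k5.eq]
      group
  · have k1 : b * b ∈ D := ZM _ (mul_mem hb hb) (mem_Cz.2 fun m hm => by
      rw [← mul_inv_eq_iff_eq_mul, ← conj_mul]
      rcases MM m hm b hb with e | e <;> rw [mul_inv_eq_iff_eq_mul.1 e]
      · simp
      · rw [mul_assoc, ← mul_assoc b, cZ' b hb.1, mul_assoc, ← mul_assoc, cc, one_mul])
    have k2 : b * b ∉ Cz P := fun e => c1 (by
      have := mul_inv_eq_iff_eq_mul.2 (mem_Cz.1 e a ha)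
      rw [← conj_mul, e1, mul_assoc, ← mul_assoc b, ← db.eq, mul_assoc, ← mul_assoc, dd] at this
      exact mul_eq_right.1 this)
    have k3 := he b hb.1
    rcases four d dD dZ _ k1 with e | e | e | e
    · exact k2 (e ▸ one_mem _)
    · exact k2 (e ▸ cZ)
    · exact c1 (by rwa [e, dd] at k3)
    · refine c1 ?_
      rwa [e, mul_assoc, ← mul_assoc d, cZ' d (DP dD), mul_assoc, ← mul_assoc, cc, dd,
        one_mul] at k3

theorem exists_u (hP : IsPGroup 2 P) (h32 : Nat.card P = 32) (hna : ¬ P ≤ Cz P)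
    (h4 : Nat.card (⁅P, P⁆ : Subgroup G) = 4) :
    ∃ u ∈ P, u ≠ 1 ∧ ∀ v ∈ P, orderOf v = orderOf u → Nat.card (P ⊓ Cu v : Subgroup G) < 16 := by
  have zz : ∀ v : G, zpowers v ≤ Cz (zpowers v) := fun v => zpowers_le.2 (Sect.cent_zpowers rfl)
  by_cases he : ∀ u ∈ P, u * u * (u * u) = 1
  · obtain ⟨u, hu, uu⟩ : ∃ x ∈ P, x * x ≠ 1 := by
      by_contra h'
      push Not at h'
      exact hna fun a ha => mem_Cz.2 fun b hb => Sect.comm_of_sq h' hb ha
    refine ⟨u, hu, fun e => uu (by simp [e]), fun j hj ho => not_le.1 fun h16 => ?_⟩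
    rw [orderOf_eq_prime_pow (p := 2) (n := 1) (x := u) (by rwa [pow_one, pow_two])
      (by rw [show 2 ^ (1 + 1) = 2 * 2 from rfl, pow_mul, pow_two, pow_two, he u hu])] at ho
    have j4 : Nat.card (zpowers j) = 4 := by rw [Nat.card_zpowers, ho]; rfl
    have jj : j * j ≠ 1 := fun e => by
      have := orderOf_dvd_of_pow_eq_one ((pow_two j).trans e)
      rw [ho] at this
      exact absurd this (by decide)
    have k : ∀ w ∈ P, w ∈ Cz (P ⊓ Cu j) → w ∈ zpowers j := fun w hw hw' =>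
      mem_of_four na (zpowers_le.2 hj) (zz j) j4.ge inf_le_left h16
        (fun x hx => Sect.cent_zpowers (mem_Cu.1 hx.2).symm) hw
        (Sect.cent_zpowers (mem_Cz.1 hw' j ⟨hj, mem_Cu.2 rfl⟩).symm) hw'
    by_cases hD : ⁅P, P⁆ ≤ Cz P
    · have h1 : ⁅P, P⁆ ≤ zpowers j := fun d hd =>
        k d (commutator_le' P hd) (centralizer_le inf_le_left (hD hd))
      exact jj (class_two na h4 hD j
        ((eq_of_le_of_card_ge h1 (by rw [j4, h4])).ge (mem_zpowers j)))
    refine class_three na hP h32 h4 hD he hj jj fun g hg => ?_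
    have i2 : (P ⊓ Cu j).relIndex P ≤ 2 := by
      have := Sect.card_eq_relIndex' (K := P ⊓ Cu j) (H := P) inf_le_left
      nlinarith
    have h1 : g * j * g⁻¹ ∈ zpowers j := k _ (mul_mem (mul_mem hg hj) (inv_mem hg))
      (mem_Cz.2 fun x hx => by
        have : g⁻¹ * x * g ∈ P ⊓ Cu j := by
          by_cases k : g ∈ P ⊓ Cu j
          · exact mul_mem (mul_mem (inv_mem k) hx) k
          · exact Sect.mul_mem_of_le_two i2 (mul_mem (inv_mem hg) hx.1) hg
              (fun e => k (by simpa using mul_mem hx (inv_mem e))) k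
        have := mem_Cu.1 this.2
        calc x * (g * j * g⁻¹) = g * (g⁻¹ * x * g * j) * g⁻¹ := by group
          _ = _ := by rw [← this]; group)
    rcases Sect.four_cases j4.le (mul_mem (mem_zpowers j) (mem_zpowers j)) (mem_zpowers j)
      (he j hj) jj (fun e => jj (by simp [e])) (fun e => jj (by
        rw [show j = 1 by simpa using e, mul_one])) h1 with e | e | e | e
    · exact (jj (by rw [show j = 1 by simpa using e, mul_one])).elim
    · have := he j hj
      rw [← e, conj_mul] at this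
      exact (jj (by simpa using this)).elim
    · exact Or.inl e
    · exact Or.inr e
  · push Not at he
    obtain ⟨u, hu, uu⟩ := he
    refine ⟨u, hu, fun e => uu (by simp [e]), fun v hv ho => not_le.1 fun h16 => ?_⟩
    have h8 : 8 ≤ Nat.card (zpowers v) := by
      by_contra h
      have h1 := Sect.card_le_pow (hP.to_le (zpowers_le.2 hv)) 2 (not_le.1 h)
      obtain ⟨k, hk⟩ := IsPGroup.iff_card.1 (hP.to_le (zpowers_le.2 hv))
      rw [hk, Nat.pow_le_pow_iff_right (by norm_num)] at h1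
      rw [Nat.card_zpowers, ho] at hk
      refine uu ?_
      rw [show u * u * (u * u) = u ^ 2 ^ 2 by rw [pow_two 2, pow_mul, pow_two, pow_two],
        ← orderOf_dvd_iff_pow_eq_one, hk]
      exact pow_dvd_pow 2 h1
    have := na _ (zpowers_le.2 hv) (zz v)
    obtain ⟨x, hx, hx'⟩ := Sect.exists_notMem (K := zpowers v) (H := P ⊓ Cu v) (by omega)
    exact hx' (mem_of_eight na (zpowers_le.2 hv) (zz v) h8 hx.1
      (Sect.cent_zpowers (mem_Cu.1 hx.2).symm))

end G45

open G16 G45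

theorem g45 {P : Subgroup G} (hP : IsPGroup 2 P) (h32 : Nat.card P ≤ 32) (hna : ¬ P ≤ Cz P) :
    (⁅P, P⁆ : Subgroup G).relIndex P = 4 ∨
      (Nat.card (⁅P, P⁆ : Subgroup G) = 2 ∧ (Cz P).relIndex P = 4) ∨
      (Nat.card P = 32 ∧ ∃ K, Ab2 P K) ∨
      ∃ u ∈ P, ∀ v ∈ P, orderOf v = orderOf u →
        Nat.card (P ⊓ Cu v : Subgroup G) ≤ (⁅P, P⁆ : Subgroup G).relIndex P ∧
          Nat.card (P ⊓ Cu v : Subgroup G) ≤ 4 * orderOf u := by
  by_cases h4 : (⁅P, P⁆ : Subgroup G).relIndex P = 4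
  · exact Or.inl h4
  right
  have h1 := Sect.card_eq_relIndex' (commutator_le' P)
  have h2 := two_le_card_commutator hna
  have h3 := four_le_commutator hP hna
  have h5 : 8 ≤ (⁅P, P⁆ : Subgroup G).relIndex P := by
    by_contra h
    have := Sect.relIndex_le_pow (K := ⁅P, P⁆) hP 2 (not_le.1 h)
    omega
  by_cases h6 : Nat.card (⁅P, P⁆ : Subgroup G) = 2
  · by_cases h7 : (Cz P).relIndex P = 4
    · exact Or.inl ⟨h6, h7⟩
    right; right
    have h8 := relIndex_center_ne_eight hP h6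
    have h9 := four_le_center hP hna
    have h10 : 16 ≤ (Cz P).relIndex P := by
      by_contra h
      have := Sect.relIndex_le_pow (K := Cz P) hP 3 (not_le.1 h)
      have := Sect.relIndex_le_pow (K := Cz P) hP 2 (by omega)
      omega
    obtain ⟨c, hc, c1, cc, cZ, -⟩ := exists_c h6
    have cZ' : c ∈ P ⊓ Cz P := ⟨commutator_le' P hc, cZ⟩
    have l1 := Sect.two_le_card cZ' c1
    have l2 := card_center P
    have l3 : Nat.card (P ⊓ Cz P : Subgroup G) ≤ 2 := by nlinarith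
    have l4 : Nat.card P = 32 := by nlinarith
    obtain ⟨u, hu, uu⟩ : ∃ x ∈ P, x * x ≠ 1 := by
      by_contra h'
      push Not at h'
      exact hna fun a ha => mem_Cz.2 fun b hb => Sect.comm_of_sq h' hb ha
    have u2 : ¬ orderOf u ∣ 2 := fun e => uu ((pow_two u).symm.trans (orderOf_dvd_iff_pow_eq_one.1 e))
    have u4 : 4 ≤ orderOf u := by
      by_contra h
      have h1 := Sect.card_le_pow (hP.to_le (zpowers_le.2 hu)) 1 (by
        rw [Nat.card_zpowers]; omega)
      rw [Nat.card_zpowers] at h1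
      have := orderOf_pos u
      interval_cases orderOf u <;> simp at u2
    refine ⟨u, hu, fun v hv ho => ?_⟩
    have l5 := Sect.two_mul_card_le (K := P ⊓ Cu v) (H := P) inf_le_left fun h => by
      rcases Sect.two_cases l3 cZ' c1 (x := v)
        ⟨hv, mem_Cz.2 fun u hu => (mem_Cu.1 (h hu).2).symm⟩ with e | e
      · rw [e, orderOf_one] at ho; omega
      · exact u2 (ho ▸ orderOf_dvd_of_pow_eq_one (by rw [pow_two, e, cc]))
    rw [h6] at h1
    omega
  right
  have h7 : 4 ≤ Nat.card (⁅P, P⁆ : Subgroup G) := by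
    by_contra h
    have := Sect.card_le_pow (hP.to_le (commutator_le' P)) 1 (not_le.1 h)
    omega
  have h8 : Nat.card (⁅P, P⁆ : Subgroup G) = 4 := by nlinarith
  have h9 : Nat.card P = 32 := by nlinarith
  by_cases na : ∀ A ≤ P, A ≤ Cz A → Nat.card A < 16
  · obtain ⟨u, hu, u1, h⟩ := exists_u na hP h9 hna h8
    refine Or.inr ⟨u, hu, fun v hv ho => ?_⟩
    have k1 := Sect.card_le_pow (H := P ⊓ Cu v) hP.to_inf_left 3 (h v hv ho)
    have k2 : orderOf u ≠ 1 := mt orderOf_eq_one_iff.1 u1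
    have := orderOf_pos u
    omega
  push Not at na
  obtain ⟨K, hK, ab, K16⟩ := na
  have l1 := Sect.two_mul_card_le hK fun h => hna (h.trans (ab.trans (centralizer_le h)))
  have l2 := Sect.card_eq_relIndex' hK
  have l3 : Nat.card K = 16 := by omega
  rw [l3] at l2
  have l4 : K.relIndex P = 2 := by omega
  refine Or.inl ⟨h9, K, hP, hK, ab, l4, ?_, by omega⟩
  have := normal_of_index_eq_two l4
  have h := (PGroup.card_eq_commutator_mul_center_of_index_prime Nat.prime_two (A := K.subgroupOf P)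
    ⟨⟨fun a b => Subtype.ext (Subtype.ext (mem_Cz.1 (ab b.2) _ a.2))⟩⟩ l4 fun h => hna fun a ha =>
      mem_Cz.2 fun b hb => congrArg Subtype.val (h.is_comm.comm (⟨b, hb⟩ : P) ⟨a, ha⟩)).2
  rw [PLocal.card_subgroupOf hK, l3, ← PLocal.card_map_subtype, P.map_subtype_commutator, h8,
    ← PLocal.card_map_subtype] at h
  rw [show P ⊓ Cz P = (center P).map P.subtype from
    Subgroup.ext fun x => by rw [Sect.mem_center_map, mem_inf, mem_Cz]]
  omega

end CfsgLib.KB
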