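import Mathlib
import Cfsg.Agent.Lib.KB.Defs2
import Cfsg.Agent.Lib.KB.Ab2
import Cfsg.Agent.Lib.KB.G16
import Cfsg.Agent.Lib.KB.G44

/-!
# Two-generated groups of order `64`
-/

set_option autoImplicit false
set_option linter.unusedSectionVars false

namespace CfsgLib.KB

open Subgroup CfsgLib.Blk CfsgLib.Tame
open CfsgLib.Cyc (qz)
open CfsgLib.BrPair (cS Cz Nz mem_Nz mem_Cz)
open scoped commutatorElement

universe u

namespace G64

variable {Γ : Type u} [Group Γ] [Finite Γ] {x y : Γ}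

theorem cen (hg : closure {x, y} = ⊤) {c : Γ} (h1 : Commute x c) (h2 : Commute y c) : c ∈ center Γ :=
  mem_center_iff.2 fun g => (mem_Cu.1 ((show closure {x, y} ≤ Cu c from (closure_le _).2 (by
    rintro _ (rfl | rfl)
    exacts [mem_Cu.2 h1.symm, mem_Cu.2 h2.symm])) (hg ▸ mem_top g))).symm

theorem nf (hg : closure {x, y} = ⊤) (g : Γ) : ∃ i j : ℤ, (x ^ i * y ^ j)⁻¹ * g ∈ commutator Γ := by
  have : Abelianization.of g ∈ closure {Abelianization.of x, Abelianization.of y} := by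
    rw [← Set.image_pair, ← MonoidHom.map_closure, hg]; exact mem_map_of_mem _ (mem_top g)
  obtain ⟨i, j, h⟩ := mem_closure_pair.1 this
  refine ⟨i, j, ?_⟩
  rw [← Abelianization.ker_of, MonoidHom.mem_ker, map_mul, map_inv, map_mul, map_zpow, map_zpow, h,
    inv_mul_cancel]

theorem idx_le (hg : closure {x, y} = ⊤) {a b : ℕ} (ha : 0 < a) (hb : 0 < b) (h1 : x ^ a ∈ commutator Γ)
    (h2 : y ^ b ∈ commutator Γ) : (commutator Γ).index ≤ a * b := by
  have k : ∀ {t : Γ} {n : ℕ}, 0 < n → t ^ n ∈ commutator Γ →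
      Nat.card (zpowers (t : Γ ⧸ commutator Γ)) ≤ n := fun hn h => by
    rw [Nat.card_zpowers]
    exact orderOf_le_of_pow_eq_one hn (by rwa [← QuotientGroup.mk_pow, QuotientGroup.eq_one_iff])
  refine le_trans ?_ (Nat.mul_le_mul (k ha h1) (k hb h2))
  rw [← Nat.card_prod]
  refine Nat.card_le_card_of_surjective (fun p => p.1.1 * p.2.1) fun g => ?_
  obtain ⟨g, rfl⟩ := QuotientGroup.mk_surjective g
  obtain ⟨i, j, h⟩ := nf hg g
  exact ⟨(⟨_, i, rfl⟩, ⟨_, j, rfl⟩), QuotientGroup.eq.2 h⟩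

theorem f1 (hg : closure {x, y} = ⊤) (N : Subgroup Γ) [N.Normal] (h : y⁻¹ * (x * y * x⁻¹) ∈ N) :
    commutator Γ ≤ N := by
  have hg' : closure {(x : Γ ⧸ N), (y : Γ ⧸ N)} = ⊤ := by
    rw [← QuotientGroup.mk'_apply, ← QuotientGroup.mk'_apply, ← Set.image_pair, ← MonoidHom.map_closure, hg,
      map_top_of_surjective _ (QuotientGroup.mk'_surjective N)]
  have c : Commute (x : Γ ⧸ N) (y : Γ ⧸ N) :=
    mul_inv_eq_iff_eq_mul.1 (QuotientGroup.eq.2 h : (y : Γ ⧸ N) = (x * y * x⁻¹ : Γ)).symm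
  have h1 := cen hg' (Commute.refl _) c.symm
  have h2 := cen hg' c (Commute.refl _)
  refine commutator_le.2 fun a _ b _ => (QuotientGroup.eq_one_iff _).1 ?_
  rw [← QuotientGroup.mk'_apply, map_commutatorElement, commutatorElement_eq_one_iff_mul_comm]
  exact mem_center_iff.1 (cen hg' (mem_center_iff.1 h1 _).symm (mem_center_iff.1 h2 _).symm) _

theorem w_mem (x y : Γ) : y⁻¹ * (x * y * x⁻¹) ∈ commutator Γ := by
  rw [show y⁻¹ * (x * y * x⁻¹) = ⁅y⁻¹, x⁆ by rw [commutatorElement_def]; group]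
  exact commutator_mem_commutator (mem_top y⁻¹) (mem_top x)

theorem p4 (a : Γ) : a ^ 4 = a * a * (a * a) := by simp only [pow_succ, pow_zero, one_mul, mul_assoc]

theorem gen_swap (hg : closure {x, y} = ⊤) : closure {y, x} = ⊤ := Set.pair_comm x y ▸ hg

theorem gen_mul (hg : closure {x, y} = ⊤) : closure {x, x * y} = ⊤ := by
  rw [eq_top_iff, ← hg, closure_le]
  have h1 : x ∈ closure {x, x * y} := subset_closure (by simp)
  have h2 : x * y ∈ closure {x, x * y} := subset_closure (by simp)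
  rintro _ (rfl | rfl)
  exacts [h1, by simpa using mul_mem (inv_mem h1) h2]

theorem regen (hg : closure {x, y} = ⊤) {K : Subgroup Γ} (hK : K.index = 2) :
    ∃ x y : Γ, Subgroup.closure {x, y} = ⊤ ∧ x ∉ K ∧ y ∈ K := by
  by_cases hx : x ∈ K <;> by_cases hy : y ∈ K
  · have : closure {x, y} ≤ K := (closure_le _).2 (by rintro _ (rfl | rfl) <;> assumption)
    rw [hg, top_le_iff] at this
    rw [this, index_top] at hK
    omega
  · exact ⟨y, x, gen_swap hg, hy, hx⟩
  · exact ⟨x, y, hg, hx, hy⟩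
  · exact ⟨x, x * y, gen_mul hg, hx, (mul_mem_iff_of_index_two hK).2 (iff_of_false hx hy)⟩

theorem normal_of_le {N : Subgroup Γ} (h : N ≤ center Γ) : N.Normal :=
  ⟨fun a ha g => by rwa [mem_center_iff.1 (h ha) g, mul_inv_cancel_right]⟩

theorem le_center {N : Subgroup Γ} [hN : N.Normal] (h : Nat.card N ≤ 2) : N ≤ center Γ := fun a ha =>
  mem_center_iff.2 fun g => by
    by_cases h1 : a = 1
    · simp [h1]
    · exact mul_inv_eq_iff_eq_mul.1 ((Sect.two_cases h ha h1 (hN.conj_mem a ha g)).resolve_left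
        fun e => h1 (by simpa using e))

/-- normal subgroups of order four -/
structure Four (U : Subgroup Γ) (z v : Γ) : Prop where
  zU : z ∈ U
  vU : v ∈ U
  z1 : z ≠ 1
  zz : z * z = 1
  zc : z ∈ center Γ
  v1 : v ≠ 1
  vz : v ≠ z
  mem : ∀ u ∈ U, u = 1 ∨ u = z ∨ u = v ∨ u = z * v
  conj : ∀ g, g * v * g⁻¹ = v ∨ g * v * g⁻¹ = z * v

theorem exists_four (hΓ : IsPGroup 2 Γ) (U : Subgroup Γ) [hU : U.Normal] (h : Nat.card U = 4) :
    ∃ z v, Four U z v := by
  obtain ⟨z, zU, z1, zz, zc⟩ := Sect.exists_central hΓ U (by omega)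
  obtain ⟨v, vU, hv⟩ := Sect.exists_notMem (K := zpowers z) (H := U) (by
    rw [Sect.card_zpowers_two zz z1]; omega)
  rw [Sect.mem_zpowers_two zz, not_or] at hv
  have m := fun u (hu : u ∈ U) => Sect.four_cases h.le zU vU zz z1 hv.1 hv.2 hu
  refine ⟨z, v, zU, vU, z1, zz, mem_center_iff.2 zc, hv.1, hv.2, m, fun g => ?_⟩
  rcases m _ (hU.conj_mem v vU g) with e | e | e
  · exact absurd (by simpa using e) hv.1
  · exact absurd (by rw [mul_inv_eq_iff_eq_mul, ← zc g, mul_right_inj] at e; exact e) hv.2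
  · exact e

namespace Four

variable {U : Subgroup Γ} {z v : Γ} (h : Four U z v)
include h

theorem cz (g : Γ) : Commute g z := mem_center_iff.1 h.zc g

theorem out {g : Γ} (hg : g ∉ Cu v) : g * v * g⁻¹ = z * v :=
  (h.conj g).resolve_left fun e => hg (Pg.conj_eq_iff.1 e)

theorem index (hv : v ∉ center Γ) : (Cu v).index = 2 := by
  have h1 := Sect.relIndex_le_two (L := Cu v) (H := ⊤) fun a _ b _ ha hb => Pg.conj_eq_iff.1 (by
    rw [show a⁻¹ * b * v * (a⁻¹ * b)⁻¹ = a⁻¹ * (b * v * b⁻¹) * a by group, h.out hb, ← h.out ha]; group)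
  have h2 := Sect.two_le_relIndex (K := Cu v) (H := ⊤) fun e =>
    hv (mem_center_iff.2 fun g => (mem_Cu.1 (e (mem_top g))).symm)
  rw [← relIndex_top_right]; omega

theorem comm {g u : Γ} (hg : g ∈ Cu v) (hu : u ∈ U) : Commute g u := by
  have c : Commute g v := (mem_Cu.1 hg).symm
  rcases h.mem u hu with rfl | rfl | rfl | rfl
  exacts [Commute.one_right _, h.cz g, c, (h.cz g).mul_right c]

theorem der_le : commutator Γ ≤ Cu v := by
  by_cases hv : v ∈ center Γ
  · exact fun g _ => mem_Cu.2 (mem_center_iff.1 hv g).symm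
  · refine commutator_le.2 fun a _ b _ => ?_
    simp only [commutatorElement_def, mul_mem_iff_of_index_two (h.index hv), inv_mem_iff]
    tauto

theorem swap {u : Γ} (hu : u ∈ U) (h1 : u ≠ 1) (h2 : u ≠ z) : Four U z u ∧ Cu u = Cu v := by
  obtain rfl | rfl := ((h.mem u hu).resolve_left h1).resolve_left h2
  · exact ⟨h, rfl⟩
  have e : z * (z * v) = v := by rw [← mul_assoc, h.zz, one_mul]
  refine ⟨⟨h.zU, hu, h.z1, h.zz, h.zc, h1, h2, fun a ha => ?_, fun g => ?_⟩, ?_⟩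
  · rw [e]; have := h.mem a ha; tauto
  · rw [← conj_mul, (h.cz g).eq, mul_inv_cancel_right, e]
    rcases h.conj g with k | k <;> simp [k, e]
  · ext g
    rw [mem_Cu, mem_Cu, ← mul_assoc, (h.cz g).eq, mul_assoc, mul_assoc, mul_right_inj]

theorem sq : v * v = 1 ∨ v * v = z := by
  rcases h.mem _ (mul_mem h.vU h.vU) with e | e | e | e
  exacts [.inl e, .inr e, absurd (by simpa using e) h.v1, absurd (by simpa using e) h.vz]

end Four

section F

variable {H : Type u} [Group H] [Finite H] {F : Γ →* H} {c : Γ} (hF : ∀ a, F a = 1 ↔ a ∈ zpowers c)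
include hF

theorem card_map (K : Subgroup Γ) : Nat.card (zpowers c ⊓ K : Subgroup Γ) * Nat.card (K.map F) = Nat.card K := by
  rw [← Pg.card_inf_mul (zpowers c) K, ← relIndex_ker, show F.ker = zpowers c from Subgroup.ext hF]

theorem card_map' (cc : c * c = 1) (c1 : c ≠ 1) {K : Subgroup Γ} (h : c ∈ K) :
    2 * Nat.card (K.map F) = Nat.card K := by
  rw [← card_map hF K, inf_eq_left.2 (zpowers_le.2 h), Sect.card_zpowers_two cc c1]

theorem card_range (h64 : Nat.card Γ = 64) (cc : c * c = 1) (c1 : c ≠ 1) : Nat.card F.range = 32 := by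
  have := card_map' hF cc c1 (mem_top c)
  rw [card_top, ← MonoidHom.range_eq_map] at this
  omega

omit hF in
theorem der_range : ⁅F.range, F.range⁆ = (commutator Γ).map F := by
  rw [MonoidHom.range_eq_map, ← map_commutator, commutator_def]

theorem w32_of (h64 : Nat.card Γ = 64) (hg : closure {x, y} = ⊤) (cc : c * c = 1) (c1 : c ≠ 1)
    (hk : (c ∈ commutator Γ ∧ Nat.card (commutator Γ) = 8) ∨ (c ∉ commutator Γ ∧ Nat.card (commutator Γ) = 4))
    (hs : ∀ d ∈ commutator Γ, d * d ∈ zpowers c) : W32 F.range := by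
  refine ⟨card_range hF h64 cc c1, ⟨F x, F y, by
    rw [← Set.image_pair, ← MonoidHom.map_closure, hg, MonoidHom.range_eq_map]⟩, ?_, ?_⟩
  · rw [der_range]
    rcases hk with ⟨h1, h2⟩ | ⟨h1, h2⟩
    · have := card_map' hF cc c1 h1
      omega
    · have := card_map hF (commutator Γ)
      rw [show zpowers c ⊓ commutator Γ = ⊥ from eq_bot_iff.2 fun a ha => by
        rcases (Sect.mem_zpowers_two cc).1 ha.1 with rfl | rfl
        exacts [one_mem _, absurd ha.2 h1], card_bot] at this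
      omega
  · rw [der_range]
    rintro _ ⟨d, hd, rfl⟩
    rw [← map_mul, hF]
    exact hs d hd

theorem ty_of (h64 : Nat.card Γ = 64) (hg : closure {x, y} = ⊤) (hZ : ∀ z ∈ center Γ, z * z = 1)
    (hi : (commutator Γ).index = 16) {z w : Γ} (h : Four (commutator Γ) z w) (hx : x ∉ Cu w) (hy : y ∈ Cu w)
    (hw : x * y * x⁻¹ = y * w) (ww : w * w = z) (hc : c = x * x) : ∃ K a d, Ty F.range K a d := by
  have yw : Commute y w := (mem_Cu.1 hy).symm
  have xw := h.out hx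
  have e1 : z * w = w⁻¹ := by rw [eq_inv_iff_mul_eq_one, mul_assoc, ww, h.zz]
  rw [e1] at xw
  have cZ : c ∈ center Γ := cen hg (hc ▸ (Commute.refl x).mul_right (Commute.refl x)) (by
    rw [hc, Commute, SemiconjBy, eq_comm, ← mul_inv_eq_iff_eq_mul,
      show x * x * y * (x * x)⁻¹ = x * (x * y * x⁻¹) * x⁻¹ by group, hw, ← conj_mul, hw, xw,
      mul_inv_cancel_right])
  set n := y * y * w with hn
  have nZ : n ∈ center Γ := cen hg (by
    rw [hn, Commute, SemiconjBy, ← mul_inv_eq_iff_eq_mul, ← conj_mul, ← conj_mul, hw, xw, ← mul_assoc,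
      mul_inv_cancel_right, mul_assoc, ← yw.eq, mul_assoc]) (((Commute.refl y).mul_right (Commute.refl y)).mul_right yw)
  have cc := hZ c cZ
  have nn := hZ n nZ
  have y4 : y ^ 4 = z := by
    rw [← mul_left_inj z, h.zz, ← nn, ← ww, hn, ← pow_two (y * y * w), (yw.mul_left yw).mul_pow, p4, pow_two, pow_two]
  have x4 : x ^ 4 ∈ commutator Γ := by rw [p4, ← hc, cc]; exact one_mem _
  have k : ∀ {a b : Γ}, closure {a, b} = ⊤ → a ^ 4 ∈ commutator Γ → b * b ∉ commutator Γ := fun h1 h2 h3 => by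
    have := idx_le h1 (by norm_num) two_pos h2 (by rwa [pow_two])
    omega
  have c0 : c ∉ commutator Γ := hc ▸ k (gen_swap hg) (y4 ▸ h.zU)
  have n0 : n ∉ commutator Γ := fun e => k hg x4 (by simpa [hn] using mul_mem e (inv_mem h.vU))
  have nc : n * c ∉ commutator Γ := fun e => k (gen_mul hg) x4 (by
    rwa [show x * y * (x * y) = x * y * x⁻¹ * (x * x * y) by group, hw, ← hc, ← mem_center_iff.1 cZ y,
      mul_assoc y w, ← mul_assoc w, ← yw.eq, ← mul_assoc, ← mul_assoc])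
  have c1 : c ≠ 1 := fun e => c0 (e ▸ one_mem _)
  have ker : ∀ d ∈ commutator Γ, F d = 1 → d = 1 := fun d hd e =>
    ((Sect.mem_zpowers_two cc).1 ((hF d).1 e)).resolve_right fun e => c0 (e ▸ hd)
  have Fc : F c = 1 := (hF c).2 (mem_zpowers c)
  have Fz : F z ≠ 1 := fun e => h.z1 (ker z h.zU e)
  have wZ : w ∉ center Γ := fun e => hx (mem_Cu.2 (mem_center_iff.1 e x).symm)
  have iM := h.index wZ
  have ZM : center Γ ≤ Cu w := fun a ha => mem_Cu.2 (mem_center_iff.1 ha w)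
  have memM : ∀ m ∈ Cu w, ∃ j a b : ℤ, m = y ^ j * (c ^ a * n ^ b) := by
    intro m hm
    obtain ⟨i, j, hd⟩ := nf hg m
    obtain ⟨l, hl⟩ : (x ^ i * y ^ j)⁻¹ * m ∈ zpowers w := by
      rcases h.mem _ hd with e | e | e | e <;> rw [e]
      exacts [one_mem _, ww ▸ mul_mem (mem_zpowers w) (mem_zpowers w), mem_zpowers w,
        e1 ▸ inv_mem (mem_zpowers w)]
    have h1 : x ^ i ∈ Cu w := by
      have := mul_mem (mul_mem hm (inv_mem (h.der_le hd))) (inv_mem (zpow_mem hy j))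
      rwa [show m * ((x ^ i * y ^ j)⁻¹ * m)⁻¹ * (y ^ j)⁻¹ = x ^ i by group] at this
    have hw' : w ^ l = (y ^ (-2 : ℤ)) ^ l * n ^ l := by
      rw [← Commute.mul_zpow (mem_center_iff.1 nZ _), hn]; group
    have e2 : ∀ a : ℤ, x ^ (2 * a) = c ^ a := fun a => by rw [zpow_mul, hc, zpow_two]
    obtain ⟨a, rfl | rfl⟩ := Int.even_or_odd' i
    · refine ⟨j + -2 * l, a, l, ?_⟩
      replace hl : w ^ l = _ := hl
      rw [eq_inv_mul_iff_mul_eq, e2, hw', ← mem_center_iff.1 (zpow_mem cZ a), mul_assoc,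
        ← mul_assoc (c ^ a), ← mem_center_iff.1 (zpow_mem cZ a)] at hl
      rw [← hl]; group
    · rw [zpow_add_one, e2] at h1
      exact absurd (by simpa using mul_mem (inv_mem (zpow_mem (ZM cZ) a)) h1) hx
  have zeta : ∀ a b : ℤ, c ^ a * n ^ b ∈ center Γ := fun a b => mul_mem (zpow_mem cZ a) (zpow_mem nZ b)
  have cM : ∀ a ∈ Cu w, ∀ b ∈ Cu w, Commute a b := fun a ha b hb => by
    obtain ⟨j, s, t, rfl⟩ := memM a ha
    obtain ⟨j', s', t', rfl⟩ := memM b hb
    exact (((Commute.refl y).zpow_zpow j j').mul_right (mem_center_iff.1 (zeta s' t') _)).mul_left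
      (mem_center_iff.1 (zeta s t) _).symm
  have cj : ∀ j a b : ℤ, x * (y ^ j * (c ^ a * n ^ b)) * x⁻¹ = y ^ j * (c ^ a * n ^ b) * w ^ j := fun j a b => by
    rw [← conj_mul, ← conj_zpow, hw, mem_center_iff.1 (zeta a b) x, mul_inv_cancel_right, yw.mul_zpow,
      mul_assoc, mem_center_iff.1 (zeta a b) (w ^ j), ← mul_assoc]
  have r32 := card_range hF h64 cc c1
  have M32 : Nat.card (Cu w) = 32 := by have := (Cu w).card_mul_index; rw [iM] at this; omega
  have M16 := card_map' hF cc c1 (ZM cZ)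
  have i1 := Pg.card_mul_rel (map_le_range F (Cu w))
  have mZ : ∀ a ∈ center Γ, F a ∈ F.range ⊓ Cz F.range := fun a ha => ⟨⟨a, rfl⟩, mem_Cz.2 (by
    rintro _ ⟨g, rfl⟩; rw [← map_mul, ← map_mul, mem_center_iff.1 ha g])⟩
  have Fzz : F z * F z = 1 := by rw [← map_mul, h.zz, map_one]
  have Fnn : F n * F n = 1 := by rw [← map_mul, nn, map_one]
  have Fn : F n ∉ zpowers (F z) := fun e => by
    have k : ∀ d ∈ commutator Γ, F n ≠ F d := fun d hd e => by
      have : F (n * d⁻¹) = 1 := by rw [map_mul, map_inv, e, mul_inv_cancel]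
      rcases (Sect.mem_zpowers_two cc).1 ((hF _).1 this) with e | e
      · exact n0 (mul_inv_eq_one.1 e ▸ hd)
      · exact nc (by rwa [mul_inv_eq_iff_eq_mul.1 e, ← mem_center_iff.1 cZ d, mul_assoc, cc, mul_one])
    rcases (Sect.mem_zpowers_two Fzz).1 e with e | e
    exacts [k 1 (one_mem _) (e.trans (map_one F).symm), k z h.zU e]
  have w4 : orderOf w = 2 ^ 2 := orderOf_eq_prime_pow (by rw [pow_one, pow_two, ww]; exact h.z1)
    (by rw [show w ^ 2 ^ (1 + 1) = w * w * (w * w) from p4 w, ww, h.zz])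
  have hZ' : ∀ g ∈ F.range ⊓ Cz F.range, g = 1 ∨ g = F z ∨ g = F n ∨ g = F z * F n := by
    rintro _ ⟨⟨g, rfl⟩, h2⟩
    rcases G44.index_cases iM hx g with hm | ⟨m, hm, rfl⟩
    · obtain ⟨j, a, b, rfl⟩ := memM g hm
      have h3 := mem_Cz.1 h2 _ ⟨x, rfl⟩
      rw [← mul_inv_eq_iff_eq_mul, ← map_inv, ← map_mul, ← map_mul, cj, map_mul, mul_eq_left] at h3
      have h4 := ker _ (zpow_mem h.vU j) h3
      rw [← orderOf_dvd_iff_zpow_eq_one, w4] at h4
      obtain ⟨t, rfl⟩ := h4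
      rw [zpow_mul, zpow_natCast, show y ^ 2 ^ 2 = z from y4]
      simp only [map_mul, map_zpow, Fc, one_zpow, one_mul]
      rcases (Sect.mem_zpowers_two Fzz).1 (zpow_mem (mem_zpowers _) t) with e | e <;>
        rcases (Sect.mem_zpowers_two Fnn).1 (zpow_mem (mem_zpowers _) b) with e' | e' <;> simp [e, e']
    · have h3 := (mem_Cz.1 h2 _ ⟨y, rfl⟩).symm
      rw [← mul_inv_eq_iff_eq_mul, ← map_inv, ← map_mul, ← map_mul,
        show m * x * y * (m * x)⁻¹ = m * (x * y * x⁻¹) * m⁻¹ by group, hw,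
        (cM m hm _ (mul_mem hy (h.der_le h.vU))).eq, mul_inv_cancel_right, map_mul, mul_eq_left] at h3
      exact absurd (ker w h.vU h3) h.v1
  refine ⟨(Cu w).map F, F y, F z, ⟨IsPGroup.of_card (n := 5) r32, map_le_range F _, ?_, by
    rw [show Nat.card ((Cu w).map F) = 16 by omega] at i1; omega,
    G44.card_eq_four (mZ z h.zc) (mZ n nZ) Fz Fzz Fn hZ', by omega⟩, mem_map_of_mem F hy, ?_, fun g hg => ?_,
    (der_range (F := F)).symm ▸ mem_map_of_mem F h.zU, orderOf_eq_prime (by rw [pow_two, Fzz]) Fz, ?_⟩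
  · rintro _ ⟨a, ha, rfl⟩
    refine mem_Cz.2 ?_
    rintro _ ⟨b, hb, rfl⟩
    exact ((cM b hb a ha).map F).eq
  · rw [orderOf_eq_prime_pow (p := 2) (n := 2) (x := F y) (by rw [← map_pow]; exact y4 ▸ Fz) (by
      rw [← map_pow, show y ^ 2 ^ (2 + 1) = y ^ 4 * y ^ 4 from pow_add y 4 4, y4, h.zz, map_one])]
    omega
  · rcases hZ' g hg with rfl | rfl | rfl | rfl
    exacts [mul_one _, Fzz, Fnn, by
      rw [mul_assoc, ← mul_assoc (F n), ((h.cz n).map F).eq, mul_assoc, Fnn, mul_one, Fzz]]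
  · rintro _ ⟨g, rfl⟩ hu e
    rcases G44.index_cases iM hx g with hm | ⟨m, hm, rfl⟩
    · exact hu (mem_map_of_mem F hm)
    obtain ⟨j, a, b, rfl⟩ := memM m hm
    have h1 : y ^ j * (c ^ a * n ^ b) * x * (y ^ j * (c ^ a * n ^ b) * x) = n ^ j * c := by
      have h2 := hZ _ (zeta a b)
      have h3 := mem_center_iff.1 (zeta a b)
      have h4 := cj j a b
      generalize c ^ a * n ^ b = ζ at h2 h3 h4
      rw [show y ^ j * ζ * x * (y ^ j * ζ * x) = y ^ j * ζ * (x * (y ^ j * ζ) * x⁻¹) * (x * x) by group, h4, ← hc,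
        show y ^ j * ζ * (y ^ j * ζ * w ^ j) = y ^ j * (ζ * (y ^ j * ζ)) * w ^ j by group, h3 (y ^ j),
        ← mul_assoc ζ, h2, one_mul, hn, (yw.mul_left yw).mul_zpow, (Commute.refl y).mul_zpow]
    rw [← map_mul, h1, map_mul, Fc, mul_one, map_zpow] at e
    rcases (Sect.mem_zpowers_two Fnn).1 (zpow_mem (mem_zpowers _) j) with e' | e'
    exacts [Fz (e.symm.trans e'), Fn (e'.symm.trans e ▸ mem_zpowers _)]

end F

theorem not_cyc (h64 : Nat.card Γ = 64) (hg : closure {x, y} = ⊤) (hZ : ∀ z ∈ center Γ, z * z = 1)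
    (h8 : ∀ a : Γ, a ^ 8 = 1) (hD : Nat.card (commutator Γ) = 8) {d : Γ} (hd : d ∈ commutator Γ) : d ^ 4 = 1 := by
  by_contra d4
  have hΓ : IsPGroup 2 Γ := IsPGroup.of_card (n := 6) h64
  have o8 : orderOf d = 2 ^ 3 := orderOf_eq_prime_pow d4 (h8 d)
  have e : zpowers d = commutator Γ :=
    eq_of_le_of_card_ge (zpowers_le.2 hd) (by rw [Nat.card_zpowers, o8, hD]; rfl)
  have nm : ∀ a ∈ commutator Γ, (zpowers a).Normal := fun a ha => ⟨by
    rintro _ ⟨i, rfl⟩ g
    obtain ⟨j, rfl⟩ := e.ge ha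
    obtain ⟨k, hk⟩ := e.ge (Normal.conj_mem inferInstance d hd g)
    refine ⟨k * i, ?_⟩
    simp only at hk ⊢
    rw [← conj_zpow, ← conj_zpow, ← hk]; group⟩
  have := nm _ (pow_mem hd 2)
  obtain ⟨z, v, h⟩ := exists_four hΓ (zpowers (d ^ 2)) (by
    rw [Nat.card_zpowers, orderOf_pow' _ two_ne_zero, o8]; rfl)
  have UD : zpowers (d ^ 2) ≤ commutator Γ := zpowers_le.2 (pow_mem hd 2)
  have inv : ∀ a ∈ commutator Γ, a * a = 1 → a = 1 ∨ a = z := fun a ha =>
    Pg.eq_of_cyclic (e ▸ inferInstance) (UD h.zU) ha (orderOf_eq_prime (by rw [pow_two, h.zz]) h.z1)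
  have invc : ∀ a ∈ commutator Γ, a * a = 1 → a ∈ center Γ := fun a ha aa => by
    rcases inv a ha aa with rfl | rfl
    exacts [one_mem _, h.zc]
  have vv : v * v ≠ 1 := fun k => (inv v (UD h.vU) k).elim h.v1 h.vz
  have iK := h.index fun k => vv (hZ v k)
  obtain ⟨x, y, hg, hx, hy⟩ := regen hg iK
  have hw := w_mem x y
  have := nm _ hw
  have h1 := f1 hg _ (mem_zpowers _)
  have hw' : x * y * x⁻¹ = y * (y⁻¹ * (x * y * x⁻¹)) := by group
  generalize y⁻¹ * (x * y * x⁻¹) = w at hw hw' h1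
  have w4 : w ^ 4 ≠ 1 := fun k => by
    have := (card_le_of_le h1).trans (Nat.card_zpowers w ▸ orderOf_le_of_pow_eq_one (by norm_num) k)
    omega
  have yw : Commute y (w * w) := h.comm hy (by
    obtain ⟨j, rfl⟩ := e.ge hw
    exact ⟨j, by simp only [pow_two]; rw [(Commute.refl d).mul_zpow]⟩)
  have cm : ∀ a ∈ commutator Γ, ∀ b ∈ commutator Γ, Commute a b := fun a ha b hb =>
    Sect.comm_of_mem_zpowers (e.ge ha) (e.ge hb)
  have hw1 : y⁻¹ * w * y ∈ commutator Γ := by simpa using Normal.conj_mem inferInstance w hw y⁻¹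
  have he : y⁻¹ * w * y * w⁻¹ * (y⁻¹ * w * y * w⁻¹) = 1 := by
    rw [← pow_two, (cm _ hw1 _ (inv_mem hw)).mul_pow,
      show (y⁻¹ * w * y) ^ 2 = y⁻¹ * (w * w * y) by rw [pow_two]; group, ← yw.eq]
    group
  have hec := mem_center_iff.1 (invc _ (mul_mem hw1 (inv_mem hw)) he)
  have h2 : (y * w) ^ 2 = y⁻¹ * w * y * w⁻¹ * (y ^ 2 * (w * w)) := by
    rw [← mul_assoc, ← hec]; simp only [pow_two]; group
  generalize y⁻¹ * w * y * w⁻¹ = ε at he hec h2
  have h3 : (y * w) ^ 4 = y ^ 4 * w ^ 4 := by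
    rw [show 4 = 2 * 2 from rfl, pow_mul, h2, (Commute.symm (hec _)).mul_pow, pow_two ε, he, one_mul,
      (yw.pow_left 2).mul_pow, ← pow_mul, ← pow_two w, ← pow_mul]
  have y4 : y ^ 4 ∈ commutator Γ := by
    have k1 := relIndex_mul_index h.der_le
    have k2 := (commutator Γ).card_mul_index
    have k3 := pow_index_mem (H := (commutator Γ).subgroupOf (Cu v)) ⟨y, hy⟩
    rw [iK] at k1
    rw [hD, h64] at k2
    rwa [show ((commutator Γ).subgroupOf (Cu v)).index = 4 by rw [← relIndex]; omega] at k3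
  have h4 := mem_center_iff.1 (invc _ y4 (by rw [← pow_add, h8])) x
  rw [← mul_inv_eq_iff_eq_mul, ← conj_pow, hw', h3, mul_eq_left] at h4
  exact w4 h4

theorem core (h64 : Nat.card Γ = 64) (hg : closure {x, y} = ⊤) (hZ : ∀ z ∈ center Γ, z * z = 1)
    (h8 : ∀ a : Γ, a ^ 8 = 1) : ∃ c ∈ center Γ, ∀ (H : Type u) [Group H] [Finite H] (F : Γ →* H),
      (∀ a, F a = 1 ↔ a ∈ zpowers c) → W32 F.range ∨ ∃ K a d, Ty F.range K a d := by
  have hΓ : IsPGroup 2 Γ := IsPGroup.of_card (n := 6) h64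
  have k2 := (commutator Γ).card_mul_index
  have nc : ¬ commutator Γ ≤ center Γ := fun hc => by
    have k : ∀ {x y : Γ}, closure {x, y} = ⊤ → x ^ 4 ∈ commutator Γ := fun {x y} hg => by
      have hw := hc (w_mem x y)
      have ww := hZ _ hw
      have hw' : x * y * x⁻¹ = y * (y⁻¹ * (x * y * x⁻¹)) := by group
      generalize y⁻¹ * (x * y * x⁻¹) = w at hw hw' ww
      have := hZ (x * x) (cen hg ((Commute.refl x).mul_right (Commute.refl x)) (by
        rw [Commute, SemiconjBy, eq_comm, ← mul_inv_eq_iff_eq_mul,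
          show x * x * y * (x * x)⁻¹ = x * (x * y * x⁻¹) * x⁻¹ by group, hw', ← conj_mul, hw',
          mem_center_iff.1 hw x, mul_inv_cancel_right, mul_assoc, ww, mul_one]))
      rw [p4, this]
      exact one_mem _
    have h1 := idx_le hg (by norm_num) (by norm_num) (k hg) (k (gen_swap hg))
    have := normal_of_le (zpowers_le.2 (hc (w_mem x y)))
    have h2 := (card_le_of_le (f1 hg _ (mem_zpowers _))).trans (Sect.card_le_two fun a ha =>
      (Sect.mem_zpowers_two (hZ _ (hc (w_mem x y)))).1 ha)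
    nlinarith
  have na : ¬ (⊤ : Subgroup Γ) ≤ Cz ⊤ := fun e => nc (by
    rw [commutator_def, commutator_eq_bot_iff_le_centralizer.2 e]; exact bot_le)
  have h1 := G16.four_le_commutator (hΓ.to_subgroup ⊤) na
  have h2 : (⁅(⊤ : Subgroup Γ), (⊤ : Subgroup Γ)⁆ : Subgroup Γ).relIndex ⊤ ≠ 4 := fun e => by
    obtain ⟨m, r, a, b, -, T⟩ := exists_tm_of_taussky (hΓ.to_subgroup ⊤) na e
    have := T.card
    have := T.ord ▸ orderOf_le_of_pow_eq_one (by norm_num) (h8 a)
    rw [card_top] at *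
    omega
  rw [relIndex_top_right, ← commutator_def] at h1 h2
  have h3 : ¬ Nat.card (commutator Γ) ≤ 2 := fun e => nc (le_center e)
  obtain ⟨k, hk⟩ := (hΓ.to_subgroup (commutator Γ)).exists_card_eq
  have h4 : k = 2 ∨ k = 3 := by
    have : k < 4 := (Nat.pow_lt_pow_iff_right one_lt_two).1 (by
      rw [← hk]; by_contra h
      have : (commutator Γ).index ≤ 4 := by nlinarith
      omega)
    interval_cases k <;> omega
  rcases h4 with rfl | rfl
  · obtain ⟨z, v, h⟩ := exists_four hΓ (commutator Γ) hk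
    have hi : (commutator Γ).index = 16 := by rw [hk] at k2; omega
    have iK := h.index fun e => nc fun a ha => mem_center_iff.2 fun g =>
      h.comm (mem_Cu.2 (mem_center_iff.1 e g).symm) ha
    obtain ⟨x, y, hg, hx, hy⟩ := regen hg iK
    have hw : y⁻¹ * (x * y * x⁻¹) ∉ zpowers z := fun e => by
      have := normal_of_le (zpowers_le.2 h.zc)
      exact nc ((f1 hg _ e).trans (zpowers_le.2 h.zc))
    rw [Sect.mem_zpowers_two h.zz, not_or] at hw
    obtain ⟨h', e⟩ := h.swap (w_mem x y) hw.1 hw.2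
    have hw' : x * y * x⁻¹ = y * (y⁻¹ * (x * y * x⁻¹)) := by group
    rw [← e] at hx hy
    generalize y⁻¹ * (x * y * x⁻¹) = w at h' hx hy hw'
    have yw : Commute y w := (mem_Cu.1 hy).symm
    rcases h'.sq with ww | ww
    swap
    · refine ⟨x * x, cen hg ((Commute.refl x).mul_right (Commute.refl x)) (by
        rw [Commute, SemiconjBy, eq_comm, ← mul_inv_eq_iff_eq_mul,
          show x * x * y * (x * x)⁻¹ = x * (x * y * x⁻¹) * x⁻¹ by group, hw', ← conj_mul, hw', h'.out hx,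
          mul_assoc, ← mul_assoc w, (h.cz w).eq, mul_assoc, ww, h.zz, mul_one]),
        fun H _ _ F hF => .inr (ty_of hF h64 hg hZ hi h' hx hy hw' ww rfl)⟩
    have e1 : x * x * y * (x * x)⁻¹ = y * z := by
      rw [show x * x * y * (x * x)⁻¹ = x * (x * y * x⁻¹) * x⁻¹ by group, hw', ← conj_mul, hw', h'.out hx,
        mul_assoc, ← mul_assoc w, (h.cz w).eq, mul_assoc, ww, mul_one]
    have c1 : x ^ 4 ∈ center Γ := cen hg ((Commute.refl x).pow_right 4) (by
      rw [Commute, SemiconjBy, eq_comm, ← mul_inv_eq_iff_eq_mul,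
        show x ^ 4 * y * (x ^ 4)⁻¹ = x * x * (x * x * y * (x * x)⁻¹) * (x * x)⁻¹ by rw [p4]; group, e1, ← conj_mul, e1,
        (h.cz (x * x)).eq, mul_inv_cancel_right, mul_assoc, h.zz, mul_one])
    have c2 : y ^ 2 ∈ center Γ := cen hg (by
      rw [Commute, SemiconjBy, ← mul_inv_eq_iff_eq_mul, ← conj_pow, hw', yw.mul_pow, pow_two w, ww, mul_one])
      ((Commute.refl y).pow_right 2)
    obtain ⟨c, cZ, c0⟩ : ∃ c ∈ center Γ, c ∉ commutator Γ := by
      by_contra hc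
      push Not at hc
      have := idx_le hg (by norm_num) two_pos (hc _ c1) (hc _ c2)
      omega
    refine ⟨c, cZ, fun H _ _ F hF => .inl (w32_of hF h64 hg (hZ c cZ) (fun e => c0 (e ▸ one_mem _))
      (.inr ⟨c0, hk⟩) fun d hd => ?_)⟩
    rcases h'.mem d hd with rfl | rfl | rfl | rfl
    · simp
    · rw [h.zz]; exact one_mem _
    · rw [ww]; exact one_mem _
    · rw [mul_assoc, ← mul_assoc w, (h.cz w).eq, mul_assoc, ww, mul_one, h.zz]; exact one_mem _
  obtain ⟨U, UD, Un, U4⟩ := Sect.exists_norm_card (hΓ.to_subgroup ⊤) (M := commutator Γ) le_top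
    (fun g _ a ha => Normal.conj_mem inferInstance a ha g) (k := 2) (by rw [hk]; norm_num)
  have : U.Normal := ⟨fun a ha g => Un g (mem_top g) a ha⟩
  obtain ⟨z, v, h⟩ := exists_four hΓ U U4
  have ab : commutator Γ ≤ Cz (commutator Γ) := G16.comm_of_le_two (Z := U) (by
    have := Pg.card_mul_rel UD
    rw [U4, hk] at this
    omega) fun a _ ha => mem_Cz.2 fun g hg => (h.comm (h.der_le hg) ha).eq
  have cm : ∀ a b : commutator Γ, Commute (a : Γ) b := fun a b => mem_Cz.1 (ab b.2) a a.2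
  let φ : commutator Γ →* Γ := MonoidHom.mk' (fun d => (d : Γ) ^ 2) fun a b => (cm a b).mul_pow 2
  have : φ.range.Normal := ⟨by
    rintro _ ⟨d, rfl⟩ g
    exact ⟨⟨_, Normal.conj_mem inferInstance _ d.2 g⟩, conj_pow⟩⟩
  have s1 : φ.range ≤ φ.ker.map (commutator Γ).subtype := by
    rintro _ ⟨d, rfl⟩
    exact ⟨d ^ 2, (pow_mul _ 2 2).symm.trans (not_cyc h64 hg hZ h8 hk d.2), rfl⟩
  have s2 := card_le_of_le s1
  have s3 := φ.ker.card_mul_index
  rw [card_map_of_injective (commutator Γ).subtype_injective] at s2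
  rw [index_ker, hk] at s3
  have s4 : Nat.card φ.range ≤ 2 := by nlinarith
  obtain ⟨c, cZ, c1, cD, hc⟩ : ∃ c ∈ center Γ, c ≠ 1 ∧ c ∈ commutator Γ ∧ φ.range ≤ zpowers c := by
    by_cases e : φ.range = ⊥
    · exact ⟨z, h.zc, h.z1, UD h.zU, e ▸ bot_le⟩
    obtain ⟨⟨c, hc⟩, c1⟩ := (ne_bot_iff_exists_ne_one).1 e
    have c1' : c ≠ 1 := fun k => c1 (Subtype.ext k)
    refine ⟨c, le_center s4 hc, c1', map_subtype_le _ (s1 hc), fun a ha => ?_⟩
    rcases Sect.two_cases s4 hc c1' ha with rfl | rfl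
    exacts [one_mem _, mem_zpowers _]
  exact ⟨c, cZ, fun H _ _ F hF => .inl (w32_of hF h64 hg (hZ c cZ) c1 (.inl ⟨cD, hk⟩)
    fun d hd => pow_two d ▸ hc ⟨⟨d, hd⟩, rfl⟩)⟩

end G64

variable {G : Type*} [Group G] [Finite G]

theorem g64 {D : Subgroup G} (h64 : Nat.card D = 64) {x y : G}
    (hg : Subgroup.closure {x, y} = D) :
    (∃ z ∈ D, D ≤ Cu z ∧ 4 ≤ orderOf z) ∨ (∃ a ∈ D, 16 ≤ orderOf a) ∨
      ∃ c ∈ D, D ≤ Cu c ∧ (W32 ((D.subgroupOf (Cu c)).map (qz c)) ∨
        ∃ K a d, Ty ((D.subgroupOf (Cu c)).map (qz c)) K a d) := by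
  have hD : IsPGroup 2 D := IsPGroup.of_card (n := 6) h64
  have cen : ∀ w : D, w ∈ center D → D ≤ Cu (w : G) := fun w hw g hg =>
    mem_Cu.2 (congrArg Subtype.val (mem_center_iff.1 hw ⟨g, hg⟩)).symm
  have k : ∀ (a : D) (n : ℕ), orderOf (a : G) < 2 ^ (n + 1) → a ^ 2 ^ n = 1 := fun a n h => by
    obtain ⟨s, hs⟩ := G44.exists_ord hD a
    rw [orderOf_coe, hs, Nat.pow_lt_pow_iff_right one_lt_two] at h
    exact orderOf_dvd_iff_pow_eq_one.1 (hs ▸ pow_dvd_pow 2 (by omega))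
  by_contra hn
  simp only [not_or] at hn
  obtain ⟨n1, n2, n3⟩ := hn
  push Not at n1 n2
  have hx : x ∈ D := hg ▸ subset_closure (by simp)
  have hy : y ∈ D := hg ▸ subset_closure (by simp)
  obtain ⟨w, hw, h⟩ := G64.core h64 (x := ⟨x, hx⟩) (y := ⟨y, hy⟩) (map_injective D.subtype_injective (by
    rw [MonoidHom.map_closure, Set.image_pair, ← MonoidHom.range_eq_map, range_subtype]; exact hg))
    (fun z hz => pow_two z ▸ k z 1 (n1 z z.2 (cen z hz))) fun a => k a 3 (n2 a a.2)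
  refine n3 ⟨w, w.2, cen w hw, ?_⟩
  have e : ((qz (w : G)).comp (inclusion (cen w hw))).range =
      (D.subgroupOf (Cu (w : G))).map (qz (w : G)) := by
    rw [MonoidHom.range_comp, inclusion_range]
  rw [← e]
  refine h _ _ fun a => ?_
  rw [MonoidHom.comp_apply, ← MonoidHom.mem_ker, Cyc.ker_qz]
  exact ⟨fun ⟨t, ht⟩ => ⟨t, Subtype.ext (congrArg (Cu (w : G)).subtype ht)⟩,
    fun ⟨t, ht⟩ => ⟨t, Subtype.ext (congrArg D.subtype ht)⟩⟩

end CfsgLib.KB
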