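import Mathlib
import Cfsg.Agent.Lib.KB.Alp
import Cfsg.Agent.Lib.KB.AB
import Cfsg.Agent.Lib.KB.TV
import Cfsg.Agent.Lib.KB.Cl2

/-!
# Olsson's bound if the centre has index four
-/

set_option autoImplicit false
set_option linter.unusedSectionVars false

namespace CfsgLib.KB

attribute [local implicit_reducible] CfsgLib.Block.K

open Cfsg MonoidAlgebra CfsgLib.Char CfsgLib.Block CfsgLib.Blk CfsgLib.Star CfsgLib.Tame Subgroup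
open CfsgLib.Cyc (qz)
open CfsgLib.BrPair (cS Cz Nz cj emb res IsBlk SubLE sB IsPair IsDef MaxPair Tr stN stC IsNil
  mem_Nz mem_Cz)
open scoped ComplexConjugate

variable {G : Type*} [Group G] [Fintype G] [∀ u : G, Fintype (Cu u)]
  {M : Ideal AlgInt} {hM : IsPModular 2 M} {B : Set (IrrCharacter G)} {P : Subgroup G}
  {e : (K hM)[G]}

/-- The distinguished non-central elements. -/
def HalfEl (P : Subgroup G) (c v : G) : Prop :=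
  v ∈ P ∧ v ∉ Cz P ∧ ((∃ a ∈ P ⊓ Cu v, a * a = c) ∨ ∀ a ∈ P ⊓ Cu v, a ∉ Cz P → a * a ≠ 1)

theorem exists_halfEl {c : G} (C : Cl2 P c) : ∃ v, HalfEl P c v := by
  by_contra! H
  have key : ∀ v ∈ P, v ∉ Cz P → ∃ a ∈ P ⊓ Cu v, a ∉ Cz P ∧ a * a = 1 := fun v hv hz => by
    by_contra! h
    exact H v ⟨hv, hz, .inr h⟩
  obtain ⟨v, hv, hz⟩ := C.exists_out
  obtain ⟨a, ha, ha1, ha2⟩ := key v hv hz
  obtain ⟨w, hw, hw1⟩ : ∃ w ∈ P, w * a ≠ a * w := by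
    by_contra! h
    exact ha1 (mem_Cz.2 h)
  have hwz : w ∉ Cz P := fun e => hw1 (mem_Cz.1 e a ha.1).symm
  obtain ⟨b, hb, hb1, hb2⟩ := key w hw hwz
  have hn : a * b * a⁻¹ ≠ b := fun e => hw1 (mem_Cu.1 ((C.A_eq hw hwz hb hb1).le
    ⟨ha.1, mem_Cu.2 (mul_inv_eq_iff_eq_mul.1 e).symm⟩).2)
  refine H (a * b) ⟨mul_mem ha.1 hb.1, fun e => hn ?_, .inl ⟨a * b, ⟨mul_mem ha.1 hb.1,
    mem_Cu.2 rfl⟩, ?_⟩⟩
  · have := mem_Cz.1 e a ha.1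
    rw [mul_assoc] at this
    rw [mul_left_cancel this, mul_inv_cancel_right]
  · calc a * b * (a * b) = a * b * a⁻¹ * b := by
          rw [inv_eq_of_mul_eq_one_right ha2, mul_assoc (a * b)]
      _ = c := by rw [(C.conj ha.1 hb.1).resolve_left hn, mul_assoc, hb2, mul_one]

theorem HalfEl.conj {c v t : G} (C : Cl2 P c) (H : HalfEl P c v) (ht : t ∈ Nz P) :
    HalfEl P c (t * v * t⁻¹) := by
  refine ⟨Pg.conj_mem ht H.1, fun e => H.2.1 ((Cl2.conj_mem_Cz ht).1 e), H.2.2.imp ?_ ?_⟩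
  · rintro ⟨a, ha, e⟩
    refine ⟨t * a * t⁻¹, ⟨Pg.conj_mem ht ha.1, mem_Cu.2 ?_⟩, by rw [conj_mul, e, C.fix ht]⟩
    rw [conj_mul, conj_mul, mem_Cu.1 ha.2]
  · intro h a ha hz e
    refine h (t⁻¹ * a * t⁻¹⁻¹) ⟨Pg.conj_mem (inv_mem ht) ha.1, mem_Cu.2 ?_⟩
      (fun e => hz ((Cl2.conj_mem_Cz (inv_mem ht)).1 e)) (by rw [conj_mul, e]; simp)
    calc _ = t⁻¹ * (t * v * t⁻¹ * a) * t := by group
      _ = _ := by rw [mem_Cu.1 ha.2]; group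

theorem HalfEl.stN_le {c v : G} (h : MaxPair 2 ⊤ ⊤ (eB hM B) P e) (C : Cl2 P c) (H : HalfEl P c v)
    {f : (K hM)[G]} (hf : SubLE 2 ⊤ (P ⊓ Cu v) f P e) :
    stN ⊤ (P ⊓ Cu v) f ≤ Cu c ∧ stN ⊤ (P ⊓ Cu v) f ≤ Nz (P ⊓ Cz P) := by
  obtain ⟨hv, hz, H⟩ := H
  have r := C.rel hv hz
  have ab := C.ab hv hz
  have hn := C.le_Nz (C.Z_le hv) inf_le_left
  have hcz : P ⊓ Cz (P ⊓ Cu v) = P ⊓ Cu v := le_antisymm (inf_le_inf_left _ fun a ha =>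
    mem_Cu.2 (mem_Cz.1 ha v ⟨hv, mem_Cu.2 rfl⟩)) (le_inf inf_le_left ab)
  obtain ⟨τ, hτ, hτ'⟩ : ∃ τ ∈ P, τ ∉ P ⊓ Cu v := SetLike.not_le_iff_exists.1 fun e => by
    have := r.2
    rw [relIndex_eq_one.2 e] at this
    omega
  rcases tv ab (le_sup_right.trans (BrPair.sup_Cz_le_stN (h.blk_of hf)))
    (inf_le_left.trans inf_le_right) (by
      rw [relIndex_eq_mul h hf, inf_eq_left.2 hn, ← inf_relIndex_left, hcz, r.2]
      exact fun hd => syl_of_normal h hf hn (Nat.dvd_of_mul_dvd_mul_left two_pos hd))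
    (C.Z_le hv) r.1 ((le_inf le_rfl hn).trans ((h.inf_stN hf).ge.trans inf_le_right) hτ)
    ⟨C.mem, C.cen⟩ C.ord (mem_Cz.2 fun a ha => (mem_Cz.1 ha.2 τ hτ).symm)
    (fun a ha ha' => (C.conj hτ ha.1).resolve_left fun e => hτ' ((C.A_eq hv hz ha
      fun e => ha' ⟨ha.1, e⟩).le ⟨hτ, mem_Cu.2 (mul_inv_eq_iff_eq_mul.1 e).symm⟩)) with
    h1 | ⟨w, hw, hw1, hw2, -, -, W, hW, hc, hi, -⟩
  · exact h1
  have hw3 : w ∉ Cz P := fun e => hw1 ⟨hw.1, e⟩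
  obtain ⟨a, ha, e⟩ := H.resolve_right fun h => h w hw hw3 hw2
  refine absurd ?_ hc
  by_cases h1 : a ∈ Cz P
  · exact e ▸ (Pg.mul_mem_iff_rel hi (show a ∈ P ⊓ Cz P from ⟨ha.1, h1⟩) ⟨ha.1, h1⟩).2 Iff.rfl
  have h2 := C.mul_mem_Z hv hz ha hw h1 hw3
  convert (Pg.mul_mem_iff_rel hi h2 h2).2 Iff.rfl using 1
  rw [mul_assoc, ← mul_assoc w, mem_Cz.1 (ab ha) w hw, mul_assoc, hw2, mul_one, e]

theorem two_mul_k0_le (h : MaxPair 2 ⊤ ⊤ (eB hM B) P e) (hB : IsPBlock M B)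
    (h32 : Nat.card P ≤ 32) (hD : Nat.card (⁅P, P⁆ : Subgroup G) = 2)
    (hZ : (Cz P).relIndex P = 4) : 2 * k0 2 B ≤ Nat.card P := by
  obtain ⟨c, C⟩ := exists_cl2 hD hZ
  obtain ⟨v, hv⟩ := exists_halfEl C
  obtain ⟨u, h1, hd⟩ := exists_fus_isDef h hv.1
  have H : HalfEl P c u := fus_induction h (r := fun u w => HalfEl P c u → HalfEl P c w)
    (fun _ _ _ a b x => b (a x)) (fun _ _ _ hx H => H.conj C (le_normalizer hx))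
    (fun Q f hQ t ht _ u hu H => by
      rcases C.centric hQ.sub.le hQ.cent with rfl | ⟨w, hw, hz, rfl⟩
      · exact H.conj C ht.1.2
      have e1 := C.A_eq hw hz hu H.2.1
      have h2 := (H.stN_le h C (e1.symm ▸ hQ.sub)).2 (e1.symm ▸ ht)
      have h3 := Pg.conj_mem ht.1.2 hu
      have h4 : t * u * t⁻¹ ∉ Cz P := fun e => H.2.1 ((mem_Nz.1 h2 u).2 ⟨h3.1, e⟩).2
      exact ⟨h3.1, h4, by rw [C.A_eq hw hz h3 h4, ← e1]; exact H.2.2⟩) h1 hv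
  obtain ⟨f, hf⟩ := h.exists_sub (inf_le_left : P ⊓ Cu u ≤ P)
  have hc := C.card_A H.1 H.2.1
  have := orderOf_pos u
  refine le_trans (Nat.mul_le_mul_left 2 (k0_le_of_good h hB H.1 hd (good_local h H.1 hd hf
    ((commutator_eq_bot_iff_le_centralizer.2 (C.ab H.1 H.2.1)).le.trans bot_le) (by omega)
    fun t ht h7 => ?_))) hc.le
  have h2 := card_Pq H.1
  have hcu : c ∈ Cu u := mem_Cu.2 (mem_Cz.1 C.cen u H.1)
  have h3 : orderOf u ≠ 1 := fun e => H.2.1 (orderOf_eq_one_iff.1 e ▸ one_mem _)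
  refine (mem_Cz_Pq ⟨t, ht.2⟩).1 (mem_Cz_of_seven (Pg.mem_Nz_of_conj ?_)
    (map_pow (qz u) _ 7 ▸ (mem_Cz_Pq (⟨t, ht.2⟩ ^ 7)).2 h7) ?_)
  · rintro _ ⟨a, ha, rfl⟩
    exact ⟨⟨t, ht.2⟩ * a * ⟨t, ht.2⟩⁻¹, (Pg.conj_mem ht.1.1.2 ⟨ha, a.2⟩).1, by simp⟩
  by_cases h4 : orderOf u = 2
  · refine .inr ⟨by rw [h4] at h2; omega, qz u ⟨c, hcu⟩, ⟨_, C.mem, rfl⟩, fun e => ?_, ?_⟩
    · have := eq_of_le_of_card_ge (zpowers_le.2 ((qz_eq_one_iff _).1 e))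
        (by rw [Nat.card_zpowers, Nat.card_zpowers, h4, C.ord])
      exact H.2.1 (zpowers_le.2 C.cen (this.ge (mem_zpowers u)))
    · rw [← map_inv, ← map_mul, ← map_mul]
      exact congrArg _ (Subtype.ext (Pg.conj_eq_iff.2 ((H.stN_le h C hf).1 ht.1)))
  · exact .inl (by nlinarith [show 3 ≤ orderOf u by omega])

end CfsgLib.KB
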