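import Mathlib
import Cfsg.Agent.Lib.KB.Alp
import Cfsg.Agent.Lib.KB.Count
import Cfsg.Agent.Lib.KB.Ab2
import Cfsg.Agent.Lib.KB.TV
import Cfsg.Agent.Lib.KB.XT

/-!
# Olsson's bound for order `32` with an abelian maximal subgroup
-/

set_option autoImplicit false
set_option linter.unusedSectionVars false

namespace CfsgLib.KB

attribute [local implicit_reducible] CfsgLib.Block.K

open Cfsg MonoidAlgebra CfsgLib.Char CfsgLib.Block CfsgLib.Blk CfsgLib.Star CfsgLib.Tame Subgroup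
open CfsgLib.Cyc (qz)
open CfsgLib.BrPair (cS Cz Nz cj emb res IsBlk SubLE sB IsPair IsDef MaxPair Tr stN stC IsNil
  mem_Nz mem_Cz)
open scoped ComplexConjugate

variable {G : Type*} [Group G] [Fintype G] [∀ u : G, Fintype (Cu u)]
  {M : Ideal AlgInt} {hM : IsPModular 2 M} {B : Set (IrrCharacter G)} {P : Subgroup G}
  {e : (K hM)[G]}

theorem Ab2.k32_le {K : Subgroup G} (A : Ab2 P K) : ⁅P, P⁆ ≤ K := fun d hd => by
  obtain ⟨g, hg, hK⟩ := A.exists_out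
  obtain ⟨a, ha, rfl⟩ := (A.mem_commutator_iff hg hK).1 hd
  exact K.mul_mem (K.inv_mem ha) ((mem_Nz.1 (A.le_Nz hg) a).1 ha)

theorem Ab2.k32_cent {K : Subgroup G} (A : Ab2 P K) {d : G} (hd : d ∈ ⁅P, P⁆) (h2 : d * d = 1) :
    d ∈ P ⊓ Cz P := by
  refine ⟨A.le (A.k32_le hd), mem_Cz.2 fun g hg => ?_⟩
  by_cases hK : g ∈ K
  · exact mem_Cz.1 (A.ab (A.k32_le hd)) g hK
  · rw [← mul_inv_eq_iff_eq_mul, A.conj_commutator hg hK hd, inv_eq_of_mul_eq_one_right h2]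

theorem k32_small (h : MaxPair 2 ⊤ ⊤ (eB hM B) P e) (hB : IsPBlock M B) {K : Subgroup G}
    (A : Ab2 P K) {u : G} (hu : u ∈ P) (hK : u ∉ K) (hv : ∀ v, Fus 2 P e u v → v ∉ K) :
    k0 2 B ≤ 8 := by
  refine k0_le_of_small h hB hu fun v hf => ?_
  rw [(A.inf_Cu_out hf.right_mem (hv v hf)).2.1]
  have h1 : orderOf u ≠ 1 := fun e => hK (orderOf_eq_one_iff.1 e ▸ K.one_mem)
  have h2 := orderOf_pos u
  omega

/-- `P' = Z(P)` is a four group: outer elements stay outer -/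
theorem k32_out (h : MaxPair 2 ⊤ ⊤ (eB hM B) P e) (h32 : Nat.card P = 32) {K : Subgroup G}
    (A : Ab2 P K) (hZ : ⁅P, P⁆ = P ⊓ Cz P) (Z2 : ∀ z ∈ P ⊓ Cz P, z * z = 1) {u v : G}
    (hf : Fus 2 P e u v) : u ∉ K → v ∉ K := by
  have out : ∀ t ∈ Nz K, ∀ u, u ∉ K → t * u * t⁻¹ ∉ K := fun t ht u => mt (mem_Nz.1 ht u).2
  refine fus_induction h (r := fun u v => u ∉ K → v ∉ K) (fun _ _ _ h1 h2 => h2 ∘ h1)
    (fun u _ x hx => out x (A.le_Nz hx) u) (fun Q f hQ t ht hodd u hu hK => ?_) hf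
  have QP : Q ≤ P := hQ.sub.le
  have ZQ := A.Z_le_of_cent QP hQ.cent
  have tm : ∀ g ∈ P, TrivMod g Q (P ⊓ Cz P) := fun g hg a ha => by
    rw [← hZ]
    simpa [commutatorElement_def, mul_assoc] using
      commutator_mem_commutator (P.inv_mem (QP ha)) hg
  have nQ : P ≤ Nz Q := fun g hg => Tech.mem_normalizer_of_forall fun a ha => by
    simpa using Q.mul_mem ha (ZQ (tm g hg a ha))
  by_cases hc : Q ⊓ Cz Q ≤ P ⊓ Cz P
  · have e1 : Q ⊓ Cz Q = P ⊓ Cz P :=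
      le_antisymm hc (le_inf ZQ (inf_le_right.trans (centralizer_le QP)))
    have : P ≤ Q := fun g hg => hQ.mem_of_stab h ZQ (fun s hs => by
      rw [← e1]
      exact Subgroup.inf_normalizer_le_normalizer_inf ⟨hs.1.2, BrPair.Nz_le_Nz_Cz Q hs.1.2⟩) hg
      (nQ hg) (mem_Cz.2 fun z hz => (mem_Cz.1 hz.2 g hg).symm) (tm g hg)
    obtain rfl := le_antisymm QP this
    exact out t (A.Nz_le h32.ge ht.1.2) u hK
  obtain ⟨w, hw, hw'⟩ := SetLike.not_le_iff_exists.1 hc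
  have wP := QP hw.1
  have QC : Q ≤ P ⊓ Cu w := fun a ha => ⟨QP ha, mem_Cu.2 (mem_Cz.1 hw.2 a ha).symm⟩
  have wK : w ∉ K := fun k => hK (A.inf_Cu_in k (fun k' => hw' ⟨wP, k'⟩) ▸ QC hu)
  obtain ⟨e1, e2, -, e3, e4⟩ := A.inf_Cu_out wP wK
  have eQ : P ⊓ Cu w = Q := le_antisymm (e1 ▸ sup_le ZQ (zpowers_le.2 hw.1)) QC
  rw [eQ] at e2 e4
  have KZ : ∀ a ∈ Q, a ∈ K → a ∈ P ⊓ Cz P := fun a ha k => e3 ▸ ⟨k, (QC ha).2⟩
  by_cases el : ∀ a ∈ Q, a * a = 1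
  · have hT := h.Cz_le_stN (h.blk_of hQ.sub)
    rw [top_inf_eq] at hT
    have hn := tv4 (S := K) e2 el hT (inf_le_left.trans inf_le_right) (fun h8 => ?_) ZQ A.cZ
      (fun s hs => ((h.inf_stN hQ.sub).ge ⟨A.le hs, nQ (A.le hs)⟩).2)
      (fun s hs => mem_Cz.2 fun z hz => (mem_Cz.1 hz.2 s (A.le hs)).symm) fun z hz => ?_
    · exact fun k => hK (A.Z_le ((mem_Nz.1 (hn ht) u).2 (KZ _ ((mem_Nz.1 ht.1.2 u).1 hu) k)))
    · have h1 := hQ.syl
      rw [relIndex_eq_mul h hQ.sub, inf_eq_left.2 nQ] at h8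
      rw [inf_eq_left.2 nQ] at h1
      have h2 := Tech.card_mul_relIndex' QP
      rw [← inf_relIndex_right, inf_comm, le_antisymm hQ.cent (le_inf QP e4)] at h8
      rw [e2, h32] at h2
      rw [show Q.relIndex P = 4 by omega] at h8
      omega
    · obtain ⟨b, hb, rfl⟩ := (A.mem_commutator_iff wP wK).1 (hZ ▸ hz)
      refine ⟨b⁻¹, K.inv_mem hb, fun a ha ha' => ?_⟩
      have h1 := KZ _ (Q.mul_mem ha (Q.inv_mem hw.1)) (A.mul_mem (QP ha) (fun k => ha' (KZ a ha k))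
        (P.inv_mem wP) (mt K.inv_mem_iff.1 wK))
      have h2 := mem_Cz.1 h1.2 _ (A.le (K.inv_mem hb))
      have h3 := mem_Cz.1 hz.2 _ h1.1
      calc _ = b⁻¹ * (a * w⁻¹) * w * b := by group
        _ = a * w⁻¹ * (b⁻¹ * (w * b * w⁻¹)) * w := by rw [h2]; group
        _ = _ := by rw [h3]; group
  · push Not at el
    obtain ⟨a, ha, ha'⟩ := el
    have h4 : 4 ≤ orderOf a := by
      obtain ⟨n, hn⟩ := (IsPGroup.iff_orderOf.1 A.pg) ⟨a, QP ha⟩
      rw [orderOf_mk] at hn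
      have : ¬ orderOf a ∣ 2 := fun k => ha' (by rw [← sq]; exact orderOf_dvd_iff_pow_eq_one.1 k)
      rw [hn] at this ⊢
      rcases n with _ | _ | n
      · simp at this
      · simp at this
      · exact Nat.pow_le_pow_right (n := 2) (by norm_num) (by omega : 2 ≤ n + 1 + 1)
    have := mem_Cz.1 (mem_Cz_of_cyc (A.pg.to_le QP) e4 ha (by omega) e2.ge ht.1.2 hodd) u hu
    rwa [← this, mul_inv_cancel_right]

theorem k0_le_eight (h : MaxPair 2 ⊤ ⊤ (eB hM B) P e) (hB : IsPBlock M B)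
    (h32 : Nat.card P = 32) {K : Subgroup G} (A : Ab2 P K) : k0 2 B ≤ 8 := by
  have hK : Nat.card K = 16 := by have := A.card_eq; omega
  have hD : Nat.card (⁅P, P⁆ : Subgroup G) = 4 := by have := A.card_commutator; omega
  obtain ⟨g, hg, hgK⟩ := A.exists_out
  by_cases el : ∀ d ∈ ⁅P, P⁆, d * d = 1
  · have hZ : ⁅P, P⁆ = P ⊓ Cz P :=
      eq_of_le_of_card_ge (fun d hd => A.k32_cent hd (el d hd)) (by rw [hD, A.cZ])
    exact k32_small h hB A hg hgK fun v hv => k32_out h h32 A hZ (hZ ▸ el) hv hgK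
  push Not at el
  obtain ⟨d, hd, hd2⟩ := el
  have d4 : d ^ 4 = 1 := by
    simpa [hD] using congrArg Subtype.val
      (pow_card_eq_one' (x := (⟨d, hd⟩ : (⁅P, P⁆ : Subgroup G))))
  have od : orderOf d = 4 := orderOf_eq_prime_pow (p := 2) (n := 1) (by rwa [pow_one, sq]) d4
  have hcyc : IsCyclic (⁅P, P⁆ : Subgroup G) :=
    isCyclic_of_orderOf_eq_card ⟨d, hd⟩ (by rw [orderOf_mk, od, hD])
  obtain ⟨c, hc⟩ : ∃ c, c = d * d := ⟨_, rfl⟩
  have cD : c ∈ ⁅P, P⁆ := hc ▸ mul_mem hd hd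
  have cc : c * c = 1 := by rw [hc, ← d4]; simp only [pow_succ, pow_zero, one_mul, mul_assoc]
  have c2 : orderOf c = 2 := orderOf_eq_prime (by rwa [sq]) (hc ▸ hd2)
  have cZ := A.k32_cent cD cc
  by_cases hα : ∃ u ∈ P, u ∉ K ∧ ¬ (u * u = 1 ∨ u * u = c)
  · obtain ⟨u, hu, huK, hu2⟩ := hα
    refine k32_small h hB A hu huK fun v hv => (fus_induction h
      (r := fun u v => u ∉ K ∧ ¬ (u * u = 1 ∨ u * u = c) → v ∉ K ∧ ¬ (v * v = 1 ∨ v * v = c))
      (fun _ _ _ h1 h2 => h2 ∘ h1) (fun u hu x hx k => ⟨mt (mem_Nz.1 (A.le_Nz hx) u).2 k.1, ?_⟩)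
      (fun Q f hQ t ht hodd u hu k => ?_) hv ⟨huK, hu2⟩).1
    · have := mem_Cz.1 (A.inf_Cu_out hu k.1).2.2.1 x hx
      rw [show x * u * x⁻¹ * (x * u * x⁻¹) = x * (u * u) * x⁻¹ by group, this,
        mul_inv_cancel_right]
      exact k.2
    · by_cases hne : t ∈ Cz Q
      · rwa [← mem_Cz.1 hne u hu, mul_inv_cancel_right]
      · rcases A.odd_aut hcyc cD c2 hQ.sub.le hQ.cent ht.1.2 hodd hne with
          rfl | ⟨-, -, -, -, k'⟩ | ⟨-, k', -⟩
        · exact absurd hu k.1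
        · exact absurd (Or.inl (k' u hu)) k.2
        · exact absurd (k' u hu k.1) k.2
  push Not at hα
  obtain ⟨x, hx, hdx⟩ := (A.mem_commutator_iff hg hgK).1 hd
  have xP := A.le hx
  have xc : x * c = c * x := mem_Cz.1 cZ.2 x xP
  have e1 : g * x * g⁻¹ = x⁻¹ ∨ g * x * g⁻¹ = c * x⁻¹ := by
    have h1 := hα g hg hgK
    have h2 := hα (g * x) (P.mul_mem hg xP) fun k => hgK (by simpa using K.mul_mem k (K.inv_mem hx))
    have h3 : g * x * g⁻¹ = g * x * (g * x) * x⁻¹ * (g * g)⁻¹ := by group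
    have ci : c⁻¹ = c := inv_eq_of_mul_eq_one_right cc
    have xc' : x⁻¹ * c = c * x⁻¹ := mem_Cz.1 cZ.2 _ (P.inv_mem xP)
    rcases h1 with h1 | h1 <;> rcases h2 with h2 | h2 <;> rw [h3, h1, h2]
    · simp
    · simp
    · simp [ci, xc']
    · rw [ci, mul_assoc, xc', ← mul_assoc, cc, one_mul]; simp
  have x4 : x ^ 4 = c := by
    have : c = (x ^ 4)⁻¹ := by
      rcases e1 with e1 | e1 <;> rw [e1] at hdx
      · rw [hc, hdx]; group
      · have xc' : x⁻¹ * c = c * x⁻¹ := mem_Cz.1 cZ.2 _ (P.inv_mem xP)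
        have : d = c * (x⁻¹ * x⁻¹) := by rw [hdx, ← mul_assoc, xc', mul_assoc]
        have k : x⁻¹ * x⁻¹ * c = c * (x⁻¹ * x⁻¹) := by
          rw [mul_assoc, xc', ← mul_assoc, xc', mul_assoc]
        calc c = c * (x⁻¹ * x⁻¹ * c) * (x⁻¹ * x⁻¹) := by
              conv_lhs => rw [hc, this]
              group
          _ = c * c * (x⁻¹ * x⁻¹) * (x⁻¹ * x⁻¹) := by rw [k]; group
          _ = _ := by rw [cc]; group
    rw [← inv_inv (x ^ 4), ← this, inv_eq_of_mul_eq_one_right cc]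
  have c1 : c ≠ 1 := hc ▸ hd2
  have ox : orderOf x = 8 := orderOf_eq_prime_pow (p := 2) (n := 2) (by rwa [← x4] at c1)
    (by rw [← cc, ← x4, ← pow_add]; rfl)
  obtain ⟨r, hr, e2⟩ : ∃ r : ℤ, 4 ∣ r + 1 ∧ g * x * g⁻¹ = x ^ r := by
    rcases e1 with e1 | e1
    · exact ⟨-1, by decide, by rw [e1, zpow_neg_one]⟩
    · exact ⟨3, by decide, by rw [e1, ← x4]; group⟩
  have x2 : x * x ∉ Cz P := fun k => by
    have h1 := mem_Cz.1 k g hg
    have h2 : x ^ (2 * r) = x ^ (2 : ℤ) := by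
      calc _ = g * x * g⁻¹ * (g * x * g⁻¹) := by rw [e2]; group
        _ = g * (x * x) * g⁻¹ := by group
        _ = _ := by rw [h1, zpow_two, mul_inv_cancel_right]
    rw [zpow_eq_zpow_iff_modEq, ox, Int.modEq_iff_dvd] at h2
    omega
  have gen : ∀ u, u = x ∨ u = g * x * g⁻¹ → u ∈ K ∧ u * u ∉ Cz P ∧ orderOf u = 8 := by
    rintro u (rfl | rfl)
    · exact ⟨hx, x2, ox⟩
    · refine ⟨(mem_Nz.1 (A.le_Nz hg) x).1 hx, fun k => x2 ((mem_Nz.1
        (BrPair.Nz_le_Nz_Cz P (le_normalizer hg)) _).2 (by convert k using 1; group)), ?_⟩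
      rw [← ox]
      exact (MulAut.conj g).orderOf_eq _
  have cyc : ∀ t ∈ Nz K, ¬ 2 ∣ orderOf t → t ∈ Cz K := fun t =>
    mem_Cz_of_cyc (A.pg.to_le A.le) A.ab hx (by omega) (by omega)
  have fus : ∀ v, Fus 2 P e x v → v = x ∨ v = g * x * g⁻¹ := fun v hv => by
    refine fus_induction h (r := fun u v => u = x ∨ u = g * x * g⁻¹ → v = x ∨ v = g * x * g⁻¹)
      (fun _ _ _ h1 h2 => h2 ∘ h1) (fun u hu y hy k => ?_) (fun Q f hQ t ht hodd u hu k => ?_) hv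
      (Or.inl rfl)
    · rcases k with rfl | rfl
      · exact A.conj_in hx hg hgK hy
      · simpa [mul_assoc] using A.conj_in hx hg hgK (P.mul_mem hy hg)
    · by_cases hne : t ∈ Cz Q
      · rwa [← mem_Cz.1 hne u hu, mul_inv_cancel_right]
      · rcases A.odd_aut hcyc cD c2 hQ.sub.le hQ.cent ht.1.2 hodd hne with
          rfl | ⟨-, -, -, -, k'⟩ | ⟨k', -⟩
        · exact absurd (cyc t ht.1.2 hodd) hne
        · exact absurd (k' u hu ▸ one_mem _) (gen u k).2.1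
        · exact absurd (k' u hu) (gen u k).2.1
  have cu : ∀ u, u = x ∨ u = g * x * g⁻¹ → P ⊓ Cu u = K := fun u k =>
    A.inf_Cu_in (gen u k).1 fun k' => (gen u k).2.1 (mul_mem k' k')
  have hd := isDef_su_of_card h xP fun v hv => by rw [cu v (fus v hv), cu x (Or.inl rfl)]
  have := xt h hB xP (m := 2) ox (r := r) hr hr (fun k => ⟨fun hk => e2 ▸ fus _ hk, fun hk => by
      rcases hk with hk | hk <;> rw [hk]
      · exact fus_refl h xP
      · exact e2 ▸ fus_of_mem h xP hg⟩)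
    (isNil_su_of_ab h xP hd (by rw [cu x (Or.inl rfl)]; exact A.ab) fun t ht _ => by
      rw [cu x (Or.inl rfl)] at ht ⊢; exact cyc t ht)
  rw [pow_defect_bu h xP hd, cu x (Or.inl rfl), hK] at this
  omega

end CfsgLib.KB
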