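import Mathlib
import Cfsg.Agent.Lib.KB.Defs2
import Cfsg.Agent.Lib.KB.TV
import Cfsg.Agent.Lib.KB.Ab2
import Cfsg.Agent.Lib.KB.G16

/-!
# Fusion on the groups of order `32` with commutator subgroup `C₂ × C₂`
-/

set_option autoImplicit false
set_option linter.unusedSectionVars false

namespace CfsgLib.KB

open Subgroup CfsgLib.Blk CfsgLib.Tame
open CfsgLib.Cyc (qz)
open CfsgLib.BrPair (cS Cz Nz mem_Nz mem_Cz)

variable {G : Type*} [Group G] [Finite G]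

namespace W32P

open Pg

theorem comm_le {x y : G} {N : Subgroup G} (hn : closure {x, y} ≤ Nz N)
    (h : y⁻¹ * (x * y * x⁻¹) ∈ N) : ⁅closure {x, y}, closure {x, y}⁆ ≤ N := by
  have hy : y ∈ Nz N := hn (subset_closure (.inr rfl))
  refine commutator_le.2 fun a ha b hb => ?_
  rw [commutatorElement_def]
  induction ha, hb using closure_induction₂ with
  | mem a b ha hb =>
    have h1 := conj_mem hy h
    rcases ha with rfl | rfl <;> rcases hb with rfl | rfl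
    · simp
    · simpa [mul_assoc] using h1
    · simpa [mul_assoc] using N.inv_mem h1
    · simp
  | one_left => simp
  | one_right => simp
  | mul_left a b c ha _ _ h1 h2 =>
    convert N.mul_mem (conj_mem (hn ha) h2) h1 using 1; group
  | mul_right b c a hb _ _ h1 h2 =>
    convert N.mul_mem h1 (conj_mem (hn hb) h2) using 1; group
  | inv_left a b ha _ h1 => convert conj_mem' (hn ha) (N.inv_mem h1) using 1; group
  | inv_right a b _ hb h1 => convert conj_mem' (hn hb) (N.inv_mem h1) using 1; group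

theorem mem_zp {z a : G} (hz : z * z = 1) : a ∈ zpowers z ↔ a = 1 ∨ a = z := by
  refine ⟨?_, by rintro (rfl | rfl) <;> simp⟩
  rintro ⟨k, rfl⟩
  obtain ⟨j, rfl | rfl⟩ := k.even_or_odd' <;> simp [zpow_add, zpow_mul, zpow_ofNat, pow_two, hz]

theorem card_zp {z : G} (hz : z * z = 1) : Nat.card (zpowers z) ≤ 2 := by
  rw [Nat.card_zpowers]
  exact orderOf_le_of_pow_eq_one two_pos (by rwa [pow_two])

theorem step {A B : Subgroup G} (hB : IsPGroup 2 B) {t b : G} (ht : t ∈ Nz B)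
    (ho : ¬ 2 ∣ orderOf t) (hA : ∀ a ∈ B, a ∈ A → t * a * t⁻¹ = a) (hb : b ∈ B)
    (h : ∀ a ∈ B, a ∈ A ∨ b⁻¹ * a ∈ A) : t ∈ Cz B := by
  have h1 : t * b * t⁻¹ = b := by
    have h2 := conj_mem ht hb
    rcases h _ h2 with e | e
    · simpa using hA _ h2 e
    · have h3 := B.mul_mem (B.inv_mem hb) h2
      obtain ⟨n, hn⟩ := hB ⟨_, h3⟩
      exact fix_of_mul ho (congrArg Subtype.val hn) (hA _ h3 e) (mul_inv_cancel_left _ _).symm
  refine mem_Cz_iff_conj.2 fun a ha => (h a ha).elim (hA a ha) fun e => ?_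
  have := hA _ (B.mul_mem (B.inv_mem hb) ha) e
  calc _ = t * b * t⁻¹ * (t * (b⁻¹ * a) * t⁻¹) := by group
    _ = a := by rw [h1, this, mul_inv_cancel_left]

theorem of_idx {K B : Subgroup G} (h : K.relIndex B = 2) {b : G} (hb : b ∈ B) (h1 : b ∉ K) :
    ∀ a ∈ B, a ∈ K ∨ b⁻¹ * a ∈ K := fun a ha => or_iff_not_imp_left.2 fun e =>
  (mul_mem_iff_rel h (B.inv_mem hb) ha).2 (iff_of_false (mt K.inv_mem_iff.1 h1) e)

theorem stab {P Q T R₁ R₂ : Subgroup G} (R : Rad P Q T) (hP : IsPGroup 2 P) (h1 : R₁ ≤ Q)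
    (h2 : R₂ ≤ Q) (n1 : T ≤ Nz R₁) (n2 : T ≤ Nz R₂) {g : G} (hg : g ∈ P) (hgQ : g ∈ Nz Q)
    (c2 : g ∈ Cz R₂) (c1 : TrivMod g R₁ R₂) (c0 : TrivMod g Q R₁) : g ∈ Q := by
  let tm : ∀ A B : Subgroup G, T ≤ Nz A → T ≤ Nz B → Subgroup G := fun A B hA hB =>
    { carrier := {t | t ∈ T ∧ TrivMod t A B}
      one_mem' := ⟨one_mem _, fun a _ => by simp⟩
      mul_mem' := fun {s t} hs ht => ⟨mul_mem hs.1 ht.1, fun a ha => by
        convert B.mul_mem (hs.2 a ha) (conj_mem (hB hs.1) (ht.2 a ha)) using 1; group⟩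
      inv_mem' := fun {t} ht => ⟨inv_mem ht.1, fun a ha => by
        convert B.inv_mem (ht.2 _ (conj_mem' (hA ht.1) ha)) using 1; group⟩ }
  have hn : ∀ A B hA hB, ∀ s ∈ T, ∀ t ∈ tm A B hA hB, s * t * s⁻¹ ∈ tm A B hA hB :=
    fun A B hA hB s hs t ht => ⟨mul_mem (mul_mem hs ht.1) (inv_mem hs), fun a ha => by
      convert conj_mem (hB hs) (ht.2 _ (conj_mem' (hA hs) ha)) using 1; group⟩
  have h3 := R.rad (Cz R₂ ⊓ (tm _ _ n1 n2 ⊓ tm _ _ R.nz n1)) (fun t ht => ht.2.1.1)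
    (fun s hs => mem_Nz_of_conj fun t ht => ⟨conj_mem (BrPair.Nz_le_Nz_Cz _ (n2 hs)) ht.1,
      hn _ _ n1 n2 s hs t ht.2.1, hn _ _ R.nz n1 s hs t ht.2.2⟩) (fun t ht => by
    obtain ⟨u, -, y, hy, rfl, hc, ⟨n, hn⟩, hp⟩ := BrPair.exists_decomp 2 ht
    refine ⟨n, ?_⟩
    rw [hc.mul_pow, hn, one_mul]
    exact pow_mem (BrPair.mem_Cz_of_stabilizes (hP.to_le (h1.trans R.le))
      (BrPair.mem_Cz_of_stabilizes (hP.to_le (h2.trans R.le)) hy.1 hy.2.1.2 hp) hy.2.2.2 hp) _)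
  have h4 : g ∈ T := R.pt ⟨hg, hgQ⟩
  obtain ⟨q, hq, c, hc, rfl⟩ := (BrPair.mem_sup_iff_of_le_Nz
    (le_normalizer.trans (BrPair.Nz_le_Nz_Cz Q))).1 (h3 ⟨c2, ⟨h4, c1⟩, h4, c0⟩)
  exact Q.mul_mem hq (R.cent ⟨(P.mul_mem_cancel_left (R.le hq)).1 hg, hc⟩)

/-- the part not mentioning the generators -/
structure S0 (P V : Subgroup G) (z : G) : Prop where
  cV : Nat.card V = 4
  cm : ∀ a ∈ P, ∀ b ∈ P, a⁻¹ * (b * a * b⁻¹) ∈ V
  VP : V ≤ P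
  sq : ∀ v ∈ V, v * v = 1
  zV : z ∈ V
  z1 : z ≠ 1
  zc : ∀ g ∈ P, g * z * g⁻¹ = z

structure St (P V : Subgroup G) (z x y : G) : Prop extends S0 P V z where
  card : Nat.card P = 32
  xP : x ∈ P
  xc : x ∉ Cz V
  yM : y ∈ P ⊓ Cz V
  xy : y⁻¹ * (x * y * x⁻¹) ∉ zpowers z

namespace S0

variable {P V : Subgroup G} {z : G} (h : S0 P V z)
include h

theorem zz : z * z = 1 := h.sq z h.zV

theorem oz : orderOf z = 2 := orderOf_eq_prime (by rw [pow_two, h.zz]) h.z1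

theorem zle : zpowers z ≤ V := zpowers_le.2 h.zV

theorem idxZ : (zpowers z).relIndex V = 2 := by
  have := card_mul_rel h.zle
  rw [Nat.card_zpowers, h.oz, h.cV] at this
  omega

theorem inv {v : G} (hv : v ∈ V) : v⁻¹ = v := inv_eq_of_mul_eq_one_right (h.sq v hv)

theorem ab : V ≤ Cz V := fun a ha b hb => by
  rw [← h.inv (V.mul_mem hb ha), mul_inv_rev, h.inv ha, h.inv hb]

theorem four {v w : G} (hv : v ∈ V) (hw : w ∈ V) (h1 : w ∉ zpowers z) :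
    (v = 1 ∨ v = z) ∨ v = w ∨ v = w * z :=
  (of_idx h.idxZ hw h1 v hv).imp (mem_zp h.zz).1 fun e => ((mem_zp h.zz).1 e).imp
    (fun e => (inv_mul_eq_one.1 e).symm) fun e => inv_mul_eq_iff_eq_mul.1 e

theorem fixz {g a : G} (hg : g ∈ P) (ha : a ∈ zpowers z) : g * a * g⁻¹ = a := by
  rcases (mem_zp h.zz).1 ha with rfl | rfl
  exacts [by simp, h.zc g hg]

theorem nz {Q : Subgroup G} (h1 : V ≤ Q) (h2 : Q ≤ P) : P ≤ Nz Q := fun g hg =>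
  mem_Nz_of_conj fun a ha => (Q.mul_mem_cancel_left (Q.inv_mem ha)).1 (h1 (h.cm a (h2 ha) g hg))

theorem act {g v : G} (hg : g ∈ P) (hv : v ∈ V) : v⁻¹ * (g * v * g⁻¹) ∈ zpowers z := by
  by_cases h1 : v ∈ zpowers z
  · simp [h.fixz hg h1]
  · refine (of_idx h.idxZ hv h1 _ (conj_mem (h.nz le_rfl h.VP hg) hv)).resolve_left fun e => h1 ?_
    have := h.fixz (P.inv_mem hg) e
    rw [← this] at e
    simpa [mul_assoc] using e

theorem mv {g v : G} (hg : g ∈ P) (h1 : g ∉ Cz V) (hv : v ∈ V) (h2 : v ∉ zpowers z) :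
    g * v * g⁻¹ = v * z := by
  refine inv_mul_eq_iff_eq_mul.1 (((mem_zp h.zz).1 (h.act hg hv)).resolve_left fun e => h1 ?_)
  have e := (inv_mul_eq_one.1 e).symm
  refine mem_Cz_iff_conj.2 fun a ha => ?_
  rcases h.four ha hv h2 with (rfl | rfl) | rfl | rfl
  · simp
  · exact h.zc g hg
  · exact e
  · rw [← conj_mul, e, h.zc g hg]

theorem mem_of_fix {g v : G} (hg : g ∈ P) (h1 : g ∉ Cz V) (hv : v ∈ V) (h2 : g * v * g⁻¹ = v) :
    v ∈ zpowers z := by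
  by_contra e
  exact h.z1 (left_eq_mul.1 (h2.symm.trans (h.mv hg h1 hv e)))

theorem exV : ∃ w ∈ V, w ∉ zpowers z := by
  by_contra! e
  have := h.idxZ
  rw [relIndex_eq_one.2 e] at this
  omega

theorem mulM {a b : G} (ha : a ∈ P) (hb : b ∈ P) (h1 : a ∉ Cz V) (h2 : b ∉ Cz V) :
    a * b ∈ Cz V := by
  by_contra e
  obtain ⟨w, hw, h3⟩ := h.exV
  have := h.mv (P.mul_mem ha hb) e hw h3
  rw [show a * b * w * (a * b)⁻¹ = a * (b * w * b⁻¹) * a⁻¹ by group, h.mv hb h2 hw h3, ← conj_mul,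
    h.mv ha h1 hw h3, h.zc a ha, mul_eq_left] at this
  exact h.z1 this

end S0

theorem exists_st {P : Subgroup G} (hP : W32 P) : ∃ V z x y, St P V z x y := by
  have h2 : IsPGroup 2 P := .of_card (n := 5) hP.card
  have VP := G16.commutator_le' P
  have cm : ∀ a ∈ P, ∀ b ∈ P, a⁻¹ * (b * a * b⁻¹) ∈ ⁅P, P⁆ := fun a ha b hb => by
    simpa [commutatorElement_def, mul_assoc] using commutator_mem_commutator (P.inv_mem ha) hb
  obtain ⟨z, zV, z1, zc⟩ := LocStr.exists_mem_centralizer_ne_one h2 (h2.to_le VP)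
    (fun g hg => mem_Nz_of_conj fun a ha =>
      (Subgroup.mul_mem_cancel_left _ (inv_mem ha)).1 (cm a (VP ha) g hg))
    (fun e => by simpa [e] using hP.cD)
  have h : S0 P ⁅P, P⁆ z := ⟨hP.cD, cm, VP, hP.sq, zV, z1, BrPair.mem_Cz'.1 zc⟩
  have key : ∀ x y, Subgroup.closure {x, y} = P → ∀ c, c * c = 1 → (∀ g ∈ P, g * c * g⁻¹ = c) →
      y⁻¹ * (x * y * x⁻¹) ∉ zpowers c := fun x y e c hc h1 h3 => by
    have := card_le_of_le (comm_le (fun g hg => mem_Nz_of_conj fun a ha => by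
      rcases (mem_zp hc).1 ha with rfl | rfl
      exacts [by simp, by rw [h1 g (e.le hg)]; exact ha]) h3)
    rw [e, hP.cD] at this
    have := card_zp hc
    omega
  have fin : ∀ x y, Subgroup.closure {x, y} = P → x ∉ Cz ⁅P, P⁆ → y ∈ Cz ⁅P, P⁆ →
      ∃ V z x y, St P V z x y := fun x y e hx hy => ⟨_, z, x, y, h, hP.card,
    e.le (subset_closure (.inl rfl)), hx, ⟨e.le (subset_closure (.inr rfl)), hy⟩,
    key x y e z h.zz h.zc⟩
  obtain ⟨x, y, e⟩ := hP.gen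
  have hx : x ∈ P := e ▸ subset_closure (.inl rfl)
  have hy : y ∈ P := e ▸ subset_closure (.inr rfl)
  by_cases h1 : x ∈ Cz ⁅P, P⁆ <;> by_cases h3 : y ∈ Cz ⁅P, P⁆
  · have h4 : P ≤ Cz ⁅P, P⁆ := by
      nth_rewrite 1 [← e]
      rw [closure_le]
      rintro _ (rfl | rfl) <;> assumption
    exact absurd (mem_zpowers _) (key x y e _ (hP.sq _ (cm y hy x hx)) fun g hg =>
      mem_Cz_iff_conj.1 (h4 hg) _ (cm y hy x hx))
  · exact fin y x (by rwa [Set.pair_comm]) h3 h1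
  · exact fin x y e h1 h3
  · refine fin x (x * y) (le_antisymm ?_ ?_) h1 (h.mulM hx hy h1 h3)
    · rw [closure_le]
      rintro _ (rfl | rfl)
      exacts [hx, P.mul_mem hx hy]
    · rw [← e, closure_le]
      have h5 : x ∈ closure {x, x * y} := subset_closure (.inl rfl)
      rintro _ (rfl | rfl)
      exacts [h5, (Subgroup.mul_mem_cancel_left _ h5).1 (subset_closure (.inr rfl))]

namespace St

variable {P V : Subgroup G} {z x y : G} (h : St P V z x y)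
include h

theorem two : IsPGroup 2 P := .of_card (n := 5) h.card

theorem idxM : (Cz V).relIndex P = 2 := relIndex_eq_two_iff.2 ⟨x, h.xP, fun b hb => by
  by_cases e : b ∈ Cz V
  · exact .inr ⟨e, mt (mul_mem_cancel_left e).1 h.xc⟩
  · exact .inl ⟨h.mulM hb h.xP e h.xc, e⟩⟩

theorem cM : Nat.card (P ⊓ Cz V : Subgroup G) = 16 := by
  have := card_inf_mul (Cz V) P
  rw [h.idxM, h.card, inf_comm] at this
  omega

theorem VM : V ≤ P ⊓ Cz V := le_inf h.VP h.ab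

theorem com {a b : G} (ha : a ∈ P ⊓ Cz V) (hb : b ∈ P ⊓ Cz V) :
    a⁻¹ * (b * a * b⁻¹) ∈ zpowers z := by
  refine h.mem_of_fix h.xP h.xc (h.cm a ha.1 b hb.1) ?_
  have h1 := h.cm a ha.1 x h.xP
  have h2 := h.cm b hb.1 x h.xP
  calc _ = (a * (a⁻¹ * (x * a * x⁻¹)))⁻¹ * (b * (b⁻¹ * (x * b * x⁻¹)) * (a * (a⁻¹ * (x * a * x⁻¹))) *
      (b * (b⁻¹ * (x * b * x⁻¹)))⁻¹) := by group
    _ = _ := by
      generalize a⁻¹ * (x * a * x⁻¹) = u at h1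
      generalize b⁻¹ * (x * b * x⁻¹) = v at h2
      have e1 : Commute u a := ha.2 u h1
      have e2 : Commute v a := ha.2 v h2
      have e3 : Commute u b := hb.2 u h1
      have e5 : Commute u v := h.ab h2 u h1
      calc _ = u⁻¹ * (a⁻¹ * b * (v * a) * u * v⁻¹ * b⁻¹) := by group
        _ = u⁻¹ * (a⁻¹ * b * a * (v * u) * v⁻¹ * b⁻¹) := by rw [e2.eq]; group
        _ = u⁻¹ * ((a⁻¹ * b * a) * u) * b⁻¹ := by rw [← e5.eq]; group
        _ = _ := by rw [← ((e1.inv_right.mul_right e3).mul_right e1).eq]; group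

theorem phi {g : G} (hg : g ∈ P) (h1 : g ∉ Cz V) : y⁻¹ * (g * y * g⁻¹) ∉ zpowers z := fun e => by
  have h2 := h.com h.yM ⟨P.mul_mem (P.inv_mem h.xP) hg,
    h.mulM (P.inv_mem h.xP) hg (mt (inv_mem_iff (H := Cz V)).1 h.xc) h1⟩
  have h3 := h2
  rw [← h.fixz h.xP h2] at h3
  refine h.xy ?_
  convert mul_mem e (inv_mem h3) using 1
  group

theorem sq_conj (g m : G) : g * g * m * (g * g)⁻¹ =
    m * (m⁻¹ * (g * m * g⁻¹) * (g * (m⁻¹ * (g * m * g⁻¹)) * g⁻¹)) := by group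

theorem sq_mv {g m : G} (hg : g ∈ P) (h1 : g ∉ Cz V) (hm : m ∈ P)
    (h2 : m⁻¹ * (g * m * g⁻¹) ∉ zpowers z) : g * g * m * (g * g)⁻¹ = m * z := by
  rw [h.sq_conj, h.mv hg h1 (h.cm m hm g hg) h2, ← mul_assoc _ _ z, h.sq _ (h.cm m hm g hg), one_mul]

theorem sq_fix {g m : G} (hg : g ∈ P) (hm : m ∈ P)
    (h2 : m⁻¹ * (g * m * g⁻¹) ∈ zpowers z) : m ∈ Cu (g * g) := by
  refine mem_Cu.2 (mul_inv_eq_iff_eq_mul.1 ?_)
  rw [h.sq_conj, h.fixz hg h2, h.sq _ (h.cm m hm g hg), mul_one]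

theorem y_not {g : G} (hg : g ∈ P) (h1 : g ∉ Cz V) : y ∉ Cu (g * g) := fun e =>
  h.z1 (left_eq_mul.1 ((mul_inv_eq_iff_eq_mul.2 (mem_Cu.1 e)).symm.trans
    (h.sq_mv hg h1 h.yM.1 (h.phi hg h1))))

theorem sqM {g : G} (hg : g ∈ P) (h1 : g ∉ Cz V) : g * g ∈ P ⊓ Cz V :=
  ⟨P.mul_mem hg hg, h.mulM hg hg h1 h1⟩

theorem sq_not {g : G} (hg : g ∈ P) (h1 : g ∉ Cz V) : g * g ∉ V := fun e =>
  h.y_not hg h1 (mem_Cu.2 (h.yM.2 _ e))

theorem ZM : P ⊓ Cz V ⊓ Cz (P ⊓ Cz V) = V := by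
  have h1 := G16.four_le_center (h.two.to_le (inf_le_left (b := Cz V))) fun e =>
    h.y_not h.xP h.xc (mem_Cu.2 (e h.yM _ (h.sqM h.xP h.xc)))
  have h2 := G16.card_center (P ⊓ Cz V)
  rw [h.cM] at h2
  refine (eq_of_le_of_card_ge (le_inf h.VM fun v hv => mem_Cz.2 fun m hm => (hm.2 v hv).symm) ?_).symm
  rw [h.cV]
  nlinarith

theorem cent {m : G} (hm : m ∈ P ⊓ Cz V) (h1 : m ∉ V) :
    V ≤ P ⊓ Cz V ⊓ Cu m ∧ Nat.card (P ⊓ Cz V ⊓ Cu m : Subgroup G) = 8 := by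
  have h2 : V ≤ P ⊓ Cz V ⊓ Cu m := le_inf h.VM fun v hv => mem_Cu.2 (hm.2 v hv).symm
  have h3 := two_mul_le_of_lt (h2.lt_of_ne fun e => h1 (e.ge ⟨hm, mem_Cu.2 rfl⟩))
  have h4 := two_mul_le_of_lt ((inf_le_left (a := P ⊓ Cz V) (b := Cu m)).lt_of_ne fun e =>
    h1 (h.ZM.le ⟨hm, fun a ha => (mem_Cu.1 (e.ge ha).2).symm⟩))
  rw [h.cV] at h3
  rw [h.cM] at h4
  exact ⟨h2, by omega⟩

theorem idx1 {m : G} (hm : m ∈ P ⊓ Cz V) (h1 : m ∉ V) : V.relIndex (P ⊓ Cz V ⊓ Cu m) = 2 := by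
  have := card_mul_rel (h.cent hm h1).1
  rw [h.cV, (h.cent hm h1).2] at this
  omega

theorem idx2 {m : G} (hm : m ∈ P ⊓ Cz V) (h1 : m ∉ V) : (Cu m).relIndex (P ⊓ Cz V) = 2 := by
  have := card_inf_mul (Cu m) (P ⊓ Cz V)
  rw [h.cM, inf_comm, (h.cent hm h1).2] at this
  omega

theorem cases {m a : G} (hm : m ∈ P ⊓ Cz V) (h1 : m ∉ V) (ha : a ∈ P ⊓ Cz V) (h2 : a ∈ Cu m) :
    a ∈ V ∨ m⁻¹ * a ∈ V := of_idx (h.idx1 hm h1) ⟨hm, mem_Cu.2 rfl⟩ h1 a ⟨ha, h2⟩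

theorem sqz {m : G} (hm : m ∈ P ⊓ Cz V) : m * m ∈ zpowers z := by
  by_cases h1 : m ∈ V
  · rw [h.sq m h1]; exact one_mem _
  have h2 : m ∈ P ⊓ Cz V ⊓ Cu m := ⟨hm, mem_Cu.2 rfl⟩
  refine h.mem_of_fix h.xP h.xc ((mul_mem_iff_rel (h.idx1 hm h1) h2 h2).2 Iff.rfl) ?_
  have h3 := h.cm m hm.1 x h.xP
  calc _ = m * (m⁻¹ * (x * m * x⁻¹) * m) * (m⁻¹ * (x * m * x⁻¹)) := by group
    _ = m * m * (m⁻¹ * (x * m * x⁻¹) * (m⁻¹ * (x * m * x⁻¹))) := by rw [hm.2 _ h3]; group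
    _ = _ := by rw [h.sq _ h3, mul_one]

variable {Q T : Subgroup G} (R : Rad P Q T)
include R

theorem zQ : z ∈ Q := R.cent ⟨h.VP h.zV, BrPair.mem_Cz'.2 fun a ha => h.zc a (R.le ha)⟩

theorem out1 {g : G} (hg : g ∈ Q) (h1 : g ∉ Cz V) (h2 : ¬ V ≤ Q) {t : G} (ht : t ∈ Nz Q)
    (ho : ¬ 2 ∣ orderOf t) : t ∈ Cz Q := by
  have gP := R.le hg
  have h3 : ∀ v ∈ V, v ∈ Q → v ∈ zpowers z := fun v hv hq => by
    by_contra e
    refine h2 fun a ha => ?_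
    rcases h.four ha hv e with (rfl | rfl) | rfl | rfl
    exacts [one_mem _, h.zQ R, hq, mul_mem hq (h.zQ R)]
  have h4 : ∀ a ∈ Q, a ∈ Cz V → a ∈ zpowers z ∨ (g * g)⁻¹ * a ∈ zpowers z := fun a ha hc =>
    (h.cases (h.sqM gP h1) (h.sq_not gP h1) ⟨R.le ha, hc⟩ (h.sq_fix gP (R.le ha) (h3 _
      (h.cm a (R.le ha) g gP) (mul_mem (inv_mem ha) (conj_mem (le_normalizer hg) ha))))).imp
      (fun e => h3 a e ha) fun e => h3 _ e (mul_mem (inv_mem (mul_mem hg hg)) ha)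
  have h5 : Q ≤ zpowers g ⊔ zpowers z := fun a ha => by
    have h6 : ∀ a ∈ Q, a ∈ Cz V → a ∈ zpowers g ⊔ zpowers z := fun a ha hc =>
      (h4 a ha hc).elim mem_sup_right fun e => (Subgroup.mul_mem_cancel_left _ (inv_mem
        (mem_sup_left (mul_mem (mem_zpowers g) (mem_zpowers g))))).1 (mem_sup_right e)
    exact (of_idx h.idxM gP h1 a (R.le ha)).elim (h6 a ha) fun e => (Subgroup.mul_mem_cancel_left _
      (inv_mem (mem_sup_left (mem_zpowers g)))).1 (h6 _ (mul_mem (inv_mem hg) ha) e)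
  have hz : Commute g z := mul_inv_eq_iff_eq_mul.1 (h.zc g gP)
  have h6 : zpowers g ≤ Nz (zpowers z) := zpowers_le.2 (mem_Nz_of_conj fun a ha => by
    rwa [h.fixz gP ha])
  refine mem_Cz_of_cyc (h.two.to_le R.le) (fun a ha b hb => ?_) hg ?_ ?_ ht ho
  · obtain ⟨_, ⟨i, rfl⟩, _, ⟨j, rfl⟩, rfl⟩ := (BrPair.mem_sup_iff_of_le_Nz h6).1 (h5 ha)
    obtain ⟨_, ⟨k, rfl⟩, _, ⟨l, rfl⟩, rfl⟩ := (BrPair.mem_sup_iff_of_le_Nz h6).1 (h5 hb)
    exact ((Commute.zpow_zpow_self g k i).mul_right (hz.zpow_zpow k j)).mul_left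
      ((hz.symm.zpow_zpow l i).mul_right (Commute.zpow_zpow_self z l j))
  · have := Nat.card_le_card_of_surjective (fun p : zpowers g × zpowers z =>
      (⟨p.1 * p.2, mul_mem (zpowers_le.2 hg p.1.2) (zpowers_le.2 (h.zQ R) p.2.2)⟩ : Q)) fun a => by
      obtain ⟨b, hb, c, hc, e⟩ := (BrPair.mem_sup_iff_of_le_Nz h6).1 (h5 a.2)
      exact ⟨(⟨b, hb⟩, ⟨c, hc⟩), Subtype.ext e⟩
    rwa [Nat.card_prod, Nat.card_zpowers, Nat.card_zpowers, h.oz, mul_comm] at this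
  · have h7 := two_mul_le_of_lt ((inf_le_left (a := Q) (b := Cz V)).lt_of_ne fun e => h1 (e.ge hg).2)
    have h8 := two_mul_le_of_lt ((le_inf (zpowers_le.2 (h.zQ R)) (h.zle.trans h.ab)).lt_of_ne
      fun e => h.sq_not gP h1 (h.zle (e.ge ⟨mul_mem hg hg, (h.sqM gP h1).2⟩)))
    rw [Nat.card_zpowers, h.oz] at h8
    omega

theorem out2 {g : G} (hg : g ∈ Q) (h1 : g ∉ Cz V) (h2 : V ≤ Q) {t : G} (ht : t ∈ Nz Q)
    (ho : ¬ 2 ∣ orderOf t) : t ∈ Cz Q := by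
  have gP := R.le hg
  have cV : ∀ a ∈ Q, ∀ b ∈ Q, t * (a⁻¹ * (b * a * b⁻¹)) * t⁻¹ ∈ V := fun a ha b hb => by
    convert h.cm _ (R.le (conj_mem ht ha)) _ (R.le (conj_mem ht hb)) using 1; group
  obtain ⟨w, hw, h3⟩ := h.exV
  have tz : t * z * t⁻¹ = z := by
    have h4 := cV w (h2 hw) g hg
    rw [h.mv gP h1 hw h3, inv_mul_cancel_left] at h4
    refine ((mem_zp h.zz).1 (h.mem_of_fix gP h1 h4 ?_)).resolve_left (by simpa using h.z1)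
    calc _ = t * (t⁻¹ * g * t * z * (t⁻¹ * g * t)⁻¹) * t⁻¹ := by group
      _ = _ := by rw [h.zc _ (R.le (conj_mem' ht hg))]
  have tZ : ∀ a ∈ zpowers z, t * a * t⁻¹ = a := fun a ha => by
    rcases (mem_zp h.zz).1 ha with rfl | rfl
    exacts [by simp, tz]
  have nK : t ∈ Nz (Q ⊓ Cz V) := mem_Nz_of_conj fun a ha => ⟨conj_mem ht ha.1, by
    by_contra e
    refine h.sq_not (R.le (conj_mem ht ha.1)) e ?_
    rw [conj_mul, tZ _ (h.sqz ⟨R.le ha.1, ha.2⟩)]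
    exact h.zle (h.sqz ⟨R.le ha.1, ha.2⟩)⟩
  have tV : ∀ k ∈ Q, ∀ u ∈ Q, k⁻¹ * (u * k * u⁻¹) ∉ zpowers z → ∀ v ∈ V, t * v * t⁻¹ = v :=
    fun k hk u hu e => by
    have h4 := h.cm k (R.le hk) _ (R.le hu)
    refine mem_Cz_iff_conj.1 (step (h.two.to_le h.VP) (mem_Nz_of_conj fun a ha => ?_) ho
      (fun a _ => tZ a) h4 (of_idx h.idxZ h4 e))
    have h5 := cV k hk _ hu
    rcases h.four ha h4 e with (rfl | rfl) | rfl | rfl
    exacts [by simp, by rwa [tz], h5, by rw [← conj_mul, tz]; exact mul_mem h5 h.zV]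
  have tg : t * (g * g) * t⁻¹ = g * g := by
    have h4 := conj_mem ht hg
    have h5 : g⁻¹ * (t * g * t⁻¹) ∈ Q ⊓ Cz V := ⟨Q.mul_mem (Q.inv_mem hg) h4,
      h.mulM (P.inv_mem gP) (R.le h4) (mt (inv_mem_iff (H := Cz V)).1 h1) fun e =>
        h1 ((mem_Nz.1 nK g).2 ⟨h4, e⟩).2⟩
    have h6 : t * g * t⁻¹ = g * (g⁻¹ * (t * g * t⁻¹)) := by group
    generalize g⁻¹ * (t * g * t⁻¹) = k at h5 h6
    have h7 := h.cm k (R.le h5.1) _ (P.inv_mem gP)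
    have h8 := h.sqz ⟨R.le h5.1, h5.2⟩
    refine fix_of_mul (p := 2) (n := 1) (z := k * k * (k⁻¹ * (g⁻¹ * k * g⁻¹⁻¹))) ho
      (by rw [pow_one, pow_two, h.sq _ (mul_mem (h.zle h8) h7)]) ?_ ?_
    · by_cases e : k⁻¹ * (g⁻¹ * k * g⁻¹⁻¹) ∈ zpowers z
      exacts [tZ _ (mul_mem h8 e), tV k h5.1 _ (Q.inv_mem hg) e _ (mul_mem (h.zle h8) h7)]
    · rw [← conj_mul, h6, mul_assoc k k, ← h5.2 _ h7]; group
  have gM := h.sqM gP h1
  have tK : t ∈ Cz (Q ⊓ Cz V) := by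
    have h4 := h.two.to_le ((inf_le_left (b := Cz V)).trans R.le)
    by_cases e : ∃ k ∈ Q ⊓ Cz V, k⁻¹ * (g * k * g⁻¹) ∉ zpowers z
    · obtain ⟨k, hk, e⟩ := e
      refine step h4 nK ho (A := Cu (g * g)) (fun a ha hc => ?_) hk fun a ha => of_idx
        (h.idx2 gM (h.sq_not gP h1)) ⟨R.le hk.1, hk.2⟩ (fun e' => h.z1 (left_eq_mul.1
          ((mul_inv_eq_iff_eq_mul.2 (mem_Cu.1 e')).symm.trans (h.sq_mv gP h1 (R.le hk.1) e))))
        a ⟨R.le ha.1, ha.2⟩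
      rcases h.cases gM (h.sq_not gP h1) ⟨R.le ha.1, ha.2⟩ hc with e' | e'
      · exact tV k hk.1 g hg e a e'
      · rw [← mul_inv_cancel_left (g * g) a, ← conj_mul, tg, tV k hk.1 g hg e _ e']
    · push Not at e
      have h5 : ∀ v ∈ V, v ∈ Cu t ∨ w⁻¹ * v ∈ Cu t := fun v hv => (of_idx h.idxZ hw h3 v hv).imp
        (fun e => mem_Cu.2 (mul_inv_eq_iff_eq_mul.1 (tZ _ e)))
        fun e => mem_Cu.2 (mul_inv_eq_iff_eq_mul.1 (tZ _ e))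
      have h6 : g * g ∈ Cu t := mem_Cu.2 (mul_inv_eq_iff_eq_mul.1 tg)
      refine step h4 nK ho (A := Cu t) (fun a _ hc => mul_inv_eq_iff_eq_mul.2 (mem_Cu.1 hc))
        ⟨h2 hw, h.ab hw⟩ fun a ha => ?_
      rcases h.cases gM (h.sq_not gP h1) ⟨R.le ha.1, ha.2⟩ (h.sq_fix gP (R.le ha.1) (e a ha)) with
        e' | e'
      · exact h5 a e'
      · refine (h5 _ e').imp (fun e => (Subgroup.mul_mem_cancel_left _ (inv_mem h6)).1 e) fun e => ?_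
        have := mul_mem h6 e
        rwa [← mul_assoc, ← gM.2 _ (V.inv_mem hw), mul_assoc, mul_inv_cancel_left] at this
  exact step (h.two.to_le R.le) ht ho (A := Cz V) (fun a ha hc => mem_Cz_iff_conj.1 tK a ⟨ha, hc⟩) hg
    fun a ha => of_idx h.idxM gP h1 a (R.le ha)

theorem nZ (e : T ≤ Cu z) : T ≤ Nz (zpowers z) := fun s hs => mem_Nz_of_conj fun a ha => by
  rcases (mem_zp h.zz).1 ha with rfl | rfl
  exacts [by simp, by rwa [conj_eq_iff.2 (e hs)]]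

theorem not_M (e : Q = P ⊓ Cz V) : False := by
  have h1 : V ≤ Q := e ▸ h.VM
  refine h.xc (e.le (stab R h.two h1 (h.zle.trans h1) (fun s hs => ?_) (h.nZ R fun s hs => ?_) h.xP
    (h.nz h1 R.le h.xP) (mem_Cz_iff_conj.2 fun a => h.fixz h.xP) (fun a => h.act h.xP)
    fun a ha => h.cm a (R.le ha) x h.xP)).2
  · rw [← h.ZM, ← e]
    exact mem_Nz_of_conj fun a ha =>
      ⟨conj_mem (R.nz hs) ha.1, conj_mem (BrPair.Nz_le_Nz_Cz Q (R.nz hs)) ha.2⟩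
  · have h2 := h.com (e.le (conj_mem (R.nz hs) (e.ge h.yM)))
      (e.le (conj_mem (R.nz hs) (e.ge (h.sqM h.xP h.xc))))
    rw [show (s * y * s⁻¹)⁻¹ * (s * (x * x) * s⁻¹ * (s * y * s⁻¹) * (s * (x * x) * s⁻¹)⁻¹) =
      s * (y⁻¹ * (x * x * y * (x * x)⁻¹)) * s⁻¹ by group, h.sq_mv h.xP h.xc h.yM.1 h.xy,
      inv_mul_cancel_left] at h2
    exact conj_eq_iff.1 (((mem_zp h.zz).1 h2).resolve_left (by simpa using h.z1))

theorem not_el {m : G} (hm : m ∈ P ⊓ Cz V) (h1 : m ∉ V) (e : Q = P ⊓ Cz V ⊓ Cu m)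
    (hab : Q ≤ Cz Q) (hel : ∀ a ∈ Q, a * a = 1) : False := by
  have VQ : V ≤ Q := e ▸ (h.cent hm h1).1
  have QM : Q ≤ P ⊓ Cz V := e ▸ inf_le_left
  have PN := h.nz VQ R.le
  have PT : P ≤ T := fun g hg => R.pt ⟨hg, PN hg⟩
  have h8 : ¬ 8 ∣ (Cz Q).relIndex T := by
    obtain ⟨k, hk, h2⟩ := R.syl
    have h3 := card_inf_mul (Cz Q) P
    rw [inf_comm, le_antisymm R.cent (le_inf R.le hab), h.card] at h3
    nth_rewrite 1 [e] at h3
    rw [(h.cent hm h1).2] at h3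
    rw [h2, inf_of_le_left PN, show (Cz Q).relIndex P = 4 by omega]
    obtain ⟨j, rfl⟩ := hk
    omega
  obtain ⟨s, sM, sQ⟩ : ∃ s ∈ P ⊓ Cz V, s ∉ Q := by
    by_contra! h2
    exact h.not_M R (le_antisymm QM h2)
  have sP := sM.1
  have mv : ∀ {g a : G}, a ∈ Q → a⁻¹ * (g * a * g⁻¹) ∈ zpowers z → a ∉ Cu g →
      g * a * g⁻¹ = z * a := fun {g a} ha h2 h3 => by
    rw [hab ha z (VQ h.zV)]
    exact inv_mul_eq_iff_eq_mul.1 (((mem_zp h.zz).1 h2).resolve_left fun e =>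
      h3 (mem_Cu.2 (mul_inv_eq_iff_eq_mul.1 (inv_mul_eq_one.1 e).symm)))
  have τ : TVP.Tr Q s V z := ⟨VQ, e ▸ h.idx1 hm h1, h.zV, h.oz, mem_Cz_iff_conj.1 sM.2,
    fun a ha h2 => mv ha (h.com (QM ha) sM) fun h3 => sQ ((h.cases (QM ha) h2 sM
      (mem_Cu.2 (mem_Cu.1 h3).symm)).elim (VQ ·)
      fun h4 => (Q.mul_mem_cancel_left (Q.inv_mem ha)).1 (VQ h4))⟩
  have st : ∀ A : Subgroup G, zpowers z ≤ A → A ≤ V → ¬ T ≤ Nz A := fun A h2 h3 h4 =>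
    sQ (stab R h.two (h3.trans VQ) (h3.trans VQ) h4 h4 sP (PN sP) (centralizer_le h3 sM.2)
      (fun a ha => h2 (h.com (h.VM (h3 ha)) sM)) fun a ha => h2 (h.com (QM ha) sM))
  obtain ⟨t, ht, h2⟩ : ∃ t ∈ T, t⁻¹ ∉ (Cu z : Set G) ∪ Nz V := by
    by_contra! h2
    exact (SubgroupClass.subset_union.1 fun t (ht : t ∈ T) => by
      simpa using h2 _ (T.inv_mem ht)).elim (fun e => st _ le_rfl h.zle (h.nZ R e)) (st V h.zle le_rfl)
  have τ' := τ.conj (R.nz ht)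
  have sT' : t * s * t⁻¹ ∈ T := mul_mem (mul_mem ht (PT sP)) (inv_mem ht)
  have h3 : t * z * t⁻¹ ∉ zpowers z := fun e => ((mem_zp h.zz).1 e).elim τ'.ne
    fun e => h2 (.inl ((Cu z).inv_mem (conj_eq_iff.1 e)))
  have h4 : ∀ a ∈ V, a ∈ cS t V → t⁻¹ * a * t⁻¹⁻¹ ∈ V := fun a _ e => by
    simpa using BrPair.mem_cS.1 e
  generalize t * z * t⁻¹ = z' at τ' h3
  generalize t * s * t⁻¹ = s' at τ' sT'
  generalize cS t V = V' at τ' h4
  have z'Q := τ'.le τ'.mem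
  have h5 : z' ∉ V := fun e => by
    have h5 : z ∈ V' := by_contra fun e' => h8 (τ'.eight hab R.nz sT' (PT sP) τ e e')
    refine h2 (.inr (mem_Nz_of_conj fun a ha => h4 a ha ?_))
    rcases h.four ha e h3 with (rfl | rfl) | rfl | rfl
    exacts [one_mem _, h5, τ'.mem, mul_mem τ'.mem h5]
  have h6 : z ∉ V' := fun e => h8 (τ.eight hab R.nz (PT sP) sT' τ' e h5)
  obtain ⟨v, hv, v1, v2⟩ : ∃ v ∈ V, v ∉ zpowers z ∧ v ∈ V' := by
    obtain ⟨w, hw, h7⟩ := h.exV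
    by_cases e : w ∈ V'
    · exact ⟨w, hw, h7, e⟩
    · exact ⟨w * z, mul_mem hw h.zV, mt (Subgroup.mul_mem_cancel_right _ (mem_zpowers z)).1 h7,
        τ'.mul_mem (VQ hw) (VQ h.zV) e h6⟩
  obtain ⟨g, gP, g1, hg⟩ : ∃ g ∈ P, g ∉ Cz V ∧ (g * z' * g⁻¹ = z' ∨ g * z' * g⁻¹ = z' * v) := by
    have h7 : x * s * z' * (x * s)⁻¹ = z' * (z'⁻¹ * (x * z' * x⁻¹) * z) := by
      rw [show x * s * z' * (x * s)⁻¹ = x * (s * z' * s⁻¹) * x⁻¹ by group, τ.mv _ z'Q h5,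
        hab z'Q z (VQ h.zV), ← conj_mul, h.zc x h.xP]
      group
    have h9 : x * s ∉ Cz V := mt (Subgroup.mul_mem_cancel_right _ sM.2).1 h.xc
    rcases h.four (h.cm z' (R.le z'Q) x h.xP) hv v1 with (e | e) | e | e
    · exact ⟨x, h.xP, h.xc, .inl (inv_mul_eq_one.1 e).symm⟩
    · exact ⟨_, P.mul_mem h.xP sP, h9, .inl (by rw [h7, e, h.zz, mul_one])⟩
    · exact ⟨x, h.xP, h.xc, .inr (inv_mul_eq_iff_eq_mul.1 e)⟩
    · exact ⟨_, P.mul_mem h.xP sP, h9, .inr (by rw [h7, e, mul_assoc v, h.zz, mul_one])⟩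
  rcases hg with hg | hg
  · have h7 : ∀ a ∈ Q, a⁻¹ * (g * a * g⁻¹) ∈ zpowers z := fun a ha => by
      rcases of_idx τ.idx z'Q h5 a ha with e | e
      · exact h.act gP e
      · convert h.act gP e using 1
        rw [← conj_mul (a := z'⁻¹), ← conj_inv, hg]; group
    have h9 : ∀ a ∈ Q, a ∉ Q ⊓ Cu g → g * a * g⁻¹ = z * a := fun a ha e =>
      mv ha (h7 a ha) fun e' => e ⟨ha, e'⟩
    have v3 : v ∉ Q ⊓ Cu g := fun e => v1 (h.mem_of_fix gP g1 hv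
      (mul_inv_eq_iff_eq_mul.2 (mem_Cu.1 e.2)))
    refine h8 (τ'.eight hab R.nz sT' (PT gP) (H' := Q ⊓ Cu g) ⟨inf_le_left,
      relIndex_eq_two_iff.2 ⟨v, VQ hv, fun b hb => ?_⟩,
      ⟨VQ h.zV, mem_Cu.2 (mul_inv_eq_iff_eq_mul.1 (h.zc g gP))⟩, h.oz,
      fun a ha => mul_inv_eq_iff_eq_mul.2 (mem_Cu.1 ha.2), h9⟩
      ⟨z'Q, mem_Cu.2 (mul_inv_eq_iff_eq_mul.1 hg)⟩ h6)
    by_cases e : b ∈ Q ⊓ Cu g
    · exact .inr ⟨e, mt (Subgroup.mul_mem_cancel_left _ e).1 v3⟩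
    · refine .inl ⟨⟨mul_mem hb (VQ hv), mem_Cu.2 (mul_inv_eq_iff_eq_mul.1 ?_)⟩, e⟩
      rw [← conj_mul, h9 b hb e, h9 v (VQ hv) v3, ← hab (VQ h.zV) b hb, mul_assoc, ← mul_assoc z,
        h.zz, one_mul]
  · have τ'' := τ'.conj (PN gP)
    refine h8 (τ''.eight hab R.nz (mul_mem (mul_mem (PT gP) sT') (inv_mem (PT gP))) sT' τ'
      (hg ▸ mul_mem τ'.mem v2) fun e => h6 ?_)
    have h7 := (BrPair.conj_mem_cS (x := g)).2 (mul_mem τ'.mem v2)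
    rw [← conj_mul, hg, h.mv gP g1 hv v1, mul_assoc, ← mul_assoc v, h.sq v hv, one_mul,
      Subgroup.mul_mem_cancel_left _ e, ← h.zc g gP] at h7
    exact BrPair.conj_mem_cS.1 h7

end St

end W32P

open W32P Pg in
theorem w32_odd {P Q T : Subgroup G} (hP : W32 P) (R : Rad P Q T) {t : G} (ht : t ∈ T)
    (ho : ¬ 2 ∣ orderOf t) : t ∈ Cz Q := by
  obtain ⟨V, z, x, y, h⟩ := exists_st hP
  by_cases h1 : Q ≤ Cz V; swap
  · obtain ⟨g, hg, h1⟩ := SetLike.not_le_iff_exists.1 h1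
    by_cases h2 : V ≤ Q
    exacts [h.out2 R hg h1 h2 (R.nz ht) ho, h.out1 R hg h1 h2 (R.nz ht) ho]
  have VQ : V ≤ Q := fun v hv => R.cent ⟨h.VP hv, mem_Cz.2 fun a ha => (h1 ha v hv).symm⟩
  have QM := le_inf R.le h1
  obtain ⟨m, hm, h2⟩ : ∃ m ∈ Q, m ∉ V := by
    by_contra! e
    have := h.sqM h.xP h.xc
    exact h.sq_not h.xP h.xc (e _ (R.cent ⟨this.1, centralizer_le e this.2⟩))
  have h3 : P ⊓ Cz V ⊓ Cu m ≤ Q := fun a ha => (h.cases (QM hm) h2 ha.1 ha.2).elim (VQ ·)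
    fun e => (Q.mul_mem_cancel_left (Q.inv_mem hm)).1 (VQ e)
  have h4 : Q ≤ Cu m := by
    by_contra e
    obtain ⟨b, hb, e⟩ := SetLike.not_le_iff_exists.1 e
    refine h.not_M R (le_antisymm QM fun a ha => ?_)
    exact (of_idx (h.idx2 (QM hm) h2) (QM hb) e a ha).elim (fun e => h3 ⟨ha, e⟩) fun e =>
      (Q.mul_mem_cancel_left (Q.inv_mem hb)).1 (h3 ⟨(P ⊓ Cz V).mul_mem ((P ⊓ Cz V).inv_mem (QM hb)) ha, e⟩)
  have e := le_antisymm (le_inf QM h4) h3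
  have hab : Q ≤ Cz Q := fun a ha => mem_Cz.2 fun b hb => by
    rcases h.cases (QM hm) h2 (QM hb) (h4 hb) with e | e
    · exact h1 ha b e
    · rw [← mul_inv_cancel_left m b, mul_assoc, h1 ha _ e, ← mul_assoc, mem_Cu.1 (h4 ha), mul_assoc]
  have h8 : Nat.card Q = 8 := e ▸ (h.cent (QM hm) h2).2
  by_contra h5
  refine h.not_el R (QM hm) h2 e hab fun a ha => by_contra fun h6 => h5 ?_
  refine mem_Cz_of_cyc (h.two.to_le R.le) hab ha ?_ h8.ge (R.nz ht) ho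
  rw [h8, orderOf_eq_prime_pow (p := 2) (n := 1) (by rwa [pow_one, pow_two]) (by
    rw [pow_succ, pow_mul, pow_one, pow_two a, pow_two, h.sq _ (h.zle (h.sqz (QM ha)))])]
  rfl

end CfsgLib.KB
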