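import Mathlib
import Cfsg.Agent.Lib.KB.Main4
import Cfsg.Agent.Lib.KB.W32
import Cfsg.Agent.Lib.KB.G64

/-!
# Brauer's bound for two-generated defect groups of order at most `64`
-/

set_option autoImplicit false
set_option linter.unusedSectionVars false

namespace CfsgLib.KB

attribute [local implicit_reducible] CfsgLib.Block.K

open Cfsg MonoidAlgebra CfsgLib.Char CfsgLib.Block CfsgLib.Blk CfsgLib.Star CfsgLib.Tame Subgroup
open CfsgLib.Cyc (qz)
open CfsgLib.BrPair (cS Cz Nz cj emb res IsBlk SubLE sB IsPair IsDef MaxPair Tr stN stC IsNil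
  mem_Nz mem_Cz)
open scoped ComplexConjugate

variable {G : Type*} [Group G] [Fintype G] [∀ u : G, Fintype (Cu u)]
  {M : Ideal AlgInt} {hM : IsPModular 2 M} {B : Set (IrrCharacter G)} {P : Subgroup G}
  {e : (K hM)[G]}

theorem CR.toRad (h : MaxPair 2 ⊤ ⊤ (eB hM B) P e) {Q : Subgroup G} {f : (K hM)[G]}
    (hQ : CR 2 P e Q f) : Rad P Q (stN ⊤ Q f) :=
  ⟨hQ.sub.le, hQ.cent, inf_le_left.trans inf_le_right, Cz_le_stN_of h hQ.sub,
    inf_Nz_le_stN_of h hQ.sub, ⟨_, Nat.odd_iff.2 (Nat.two_dvd_ne_zero.1 hQ.syl),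
      relIndex_eq_mul h hQ.sub⟩, hQ.rad⟩

theorem isNil_of_w32 (h : MaxPair 2 ⊤ ⊤ (eB hM B) P e) (hP : W32 P) : IsNil 2 ⊤ ⊤ (eB hM B) :=
  isNil_of_cr h fun _ _ hQ _ ht ho => w32_odd hP (hQ.toRad h) ht ho

theorem card_le_of_two_gen (h : MaxPair 2 ⊤ ⊤ (eB hM B) P e) (hB : IsPBlock M B)
    (h64 : Nat.card P ≤ 64) {x y : G} (hg : Subgroup.closure {x, y} = P) :
    Nat.card B ≤ Nat.card P := by
  obtain ⟨n, hn⟩ := IsPGroup.iff_card.1 h.pgroup
  by_cases h6 : n = 6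
  · subst h6
    rcases g64 hn hg with ⟨z, hz, hc, h1⟩ | ⟨a, ha, h1⟩ | ⟨w, hw, hc, h1⟩
    · exact card_le_two h hB hz hc (by omega)
    · refine card_le_of_four h hB ha (Nat.le_of_mul_le_mul_left ?_ (orderOf_pos a))
      rw [← Nat.card_zpowers, Pg.card_mul_rel (zpowers_le.2 ha), Nat.card_zpowers]
      omega
    have := Fintype.ofFinite (Cu w ⧸ zpowers (uC w))
    have : ∀ x : Cu w ⧸ zpowers (uC w), Fintype (Cu x) := fun _ => Fintype.ofFinite _
    obtain ⟨b', e', h2, h3, h5, -⟩ := exists_quot_central h hw hc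
    refine card_le_of_good h hB hw hc (.inr (.inr ⟨rfl, h5 ▸ ?_⟩))
    rcases h1 with T | ⟨K, a, c, T⟩
    · obtain ⟨χ, hχ⟩ := exists_uni_of_isNil h2 (isNil_of_w32 h3 T)
      rw [hχ.rank]
      norm_num
    · exact rank_le_three_of_ty h3 h2 T
  have h5 : n ≤ 5 := by
    by_contra h7
    have := Nat.pow_le_pow_right (n := 2) (by norm_num) (show 7 ≤ n by omega)
    omega
  have h32 := Nat.pow_le_pow_right (n := 2) (by norm_num) h5
  by_cases h16 : Nat.card P ≤ 16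
  · exact card_le_two h hB P.one_mem (fun x _ => mem_Cu.2 (by simp)) (by simpa using h16)
  have : Nontrivial P := Finite.one_lt_card_iff_nontrivial.1 (by omega)
  obtain ⟨⟨z, hz⟩, h1⟩ := @exists_ne _ h.pgroup.center_nontrivial 1
  refine card_le_two h hB z.2 (fun g hg => mem_Cu.2
    (congrArg Subtype.val (mem_center_iff.1 hz ⟨g, hg⟩)).symm) ?_
  have : orderOf (z : G) ≠ 1 := fun h0 => h1 (Subtype.ext (Subtype.ext (orderOf_eq_one_iff.1 h0)))
  have := orderOf_pos (z : G)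
  omega

end CfsgLib.KB
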