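import Mathlib
import Cfsg.Agent.Lib.KB.Main
import Cfsg.Agent.Lib.KB.G45
import Cfsg.Agent.Lib.KB.Half
import Cfsg.Agent.Lib.KB.K32

/-!
# Olsson's bound for defect at most five
-/

set_option autoImplicit false
set_option linter.unusedSectionVars false

namespace CfsgLib.KB

attribute [local implicit_reducible] CfsgLib.Block.K

open Cfsg MonoidAlgebra CfsgLib.Char CfsgLib.Block CfsgLib.Blk CfsgLib.Star CfsgLib.Tame Subgroup
open CfsgLib.Cyc (qz)
open CfsgLib.BrPair (cS Cz Nz cj emb res IsBlk SubLE sB IsPair IsDef MaxPair Tr stN stC IsNil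
  mem_Nz mem_Cz)
open scoped ComplexConjugate

variable {G : Type*} [Group G] [Fintype G] [∀ u : G, Fintype (Cu u)]
  {M : Ideal AlgInt} {hM : IsPModular 2 M} {B : Set (IrrCharacter G)} {P : Subgroup G}
  {e : (K hM)[G]}

theorem k0_le_of_card_le (h : MaxPair 2 ⊤ ⊤ (eB hM B) P e) (hB : IsPBlock M B)
    (h32 : Nat.card P ≤ 32) : k0 2 B ≤ (⁅P, P⁆ : Subgroup G).relIndex P := by
  have hle : ⁅P, P⁆ ≤ P := commutator_le.2 fun a ha b hb =>
    mul_mem (mul_mem (mul_mem ha hb) (inv_mem ha)) (inv_mem hb)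
  have hc : (⁅P, P⁆ : Subgroup G).relIndex P * Nat.card (⁅P, P⁆ : Subgroup G) = Nat.card P := by
    rw [← Nat.card_congr (subgroupOfEquivOfLe hle).toEquiv]
    exact index_mul_card _
  by_cases hab : P ≤ Cz P
  · rw [commutator_eq_bot_iff_le_centralizer.2 hab, relIndex_bot_left]
    refine (Nat.card_le_card_of_injective (fun χ => (⟨χ.1, χ.2.1⟩ : B))
      fun a b hab => Subtype.ext (congrArg (·.1) hab)).trans ?_
    by_cases h1 : P = ⊥
    · exact card_le_two h hB P.one_mem (fun x _ => mem_Cu.2 (by simp)) (by simp [h1])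
    · obtain ⟨z, hz, h2, h3⟩ := Cyc.exists_central_of_ne_bot h.pgroup h1
      exact card_le_two h hB hz h3 (by omega)
  rcases g45 h.pgroup h32 hab with h1 | ⟨h1, h2⟩ | ⟨h1, K, A⟩ | ⟨u, hu, h1⟩
  · obtain ⟨m, r, x, y, hm, T⟩ := exists_tm_of_taussky h.pgroup hab h1
    exact ((thmC h T hm hB).2.2.1.trans h1.symm).le
  · have := two_mul_k0_le h hB h32 h1 h2
    rw [h1] at hc
    omega
  · have := k0_le_eight h hB h1 A
    have h2 := A.card_eq
    have h3 := A.card_commutator
    rw [show Nat.card (⁅P, P⁆ : Subgroup G) = 4 by omega] at hc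
    omega
  · refine k0_le_of_small h hB hu fun v hv => h1 v hv.right_mem ?_
    obtain ⟨g, -, rfl⟩ := hv
    exact BrPair.orderOf_conj' g u

end CfsgLib.KB
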